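import Mathlib

/-!
# Arithmetic for the exceptional rows (helper243)
-/

set_option autoImplicit false

namespace Cfsg.Agent.H243.Arith

theorem small {r e N c : ℕ} (hr : r.Prime) (hr3 : r ≠ 3) (hN : 1 ≤ e * N) (h : (r ^ e) ^ N ∣ c) (hc : c ∣ 2 ^ 13 * 3 ^ 13 * 5) :
    (r = 2 ∧ e * N ≤ 13) ∨ (r = 5 ∧ e * N = 1) := by
  have h0 := h.trans hc
  rw [← pow_mul] at h0
  have h1 : r ^ (e * N) ∣ 2 ^ 13 * 5 := by
    have h2 : (r ^ (e * N)).Coprime (3 ^ 13) := Nat.Coprime.pow _ _ ((Nat.coprime_primes hr Nat.prime_three).2 hr3)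
    refine h2.dvd_of_dvd_mul_right ?_
    have : 2 ^ 13 * 3 ^ 13 * 5 = 2 ^ 13 * 5 * 3 ^ 13 := by ring
    rwa [this] at h0
  have h2 : r ∣ 2 ^ 13 * 5 := (dvd_pow_self r (by omega)).trans h1
  rcases (Nat.Prime.dvd_mul hr).1 h2 with h3 | h3
  · have h4 : r = 2 := (Nat.prime_dvd_prime_iff_eq hr Nat.prime_two).1 (hr.dvd_of_dvd_pow h3)
    subst h4
    left
    refine ⟨rfl, ?_⟩
    have h5 : (2 ^ (e * N)).Coprime 5 := Nat.Coprime.pow_left _ (by norm_num)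
    exact (Nat.pow_dvd_pow_iff_le_right (by norm_num)).1 (h5.dvd_of_dvd_mul_right h1)
  · have h4 : r = 5 := (Nat.prime_dvd_prime_iff_eq hr (by norm_num)).1 h3
    subst h4
    right
    refine ⟨rfl, ?_⟩
    have h5 : (5 ^ (e * N)).Coprime (2 ^ 13) := Nat.Coprime.pow _ _ (by norm_num)
    have h6 := h5.dvd_of_dvd_mul_left h1
    have h7 : 5 ^ (e * N) ∣ 5 ^ 1 := by rwa [pow_one]
    have := (Nat.pow_dvd_pow_iff_le_right (by norm_num : 1 < 5)).1 h7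
    omega

theorem g2 : ∀ e < 14, ¬ 3 ^ 12 ∣ (2 ^ e) ^ 6 * ((2 ^ e) ^ 2 - 1) * ((2 ^ e) ^ 6 - 1) ∨ e = 0 := by decide +kernel

theorem g2' : ¬ 3 ^ 12 ∣ 5 ^ 6 * (5 ^ 2 - 1) * (5 ^ 6 - 1) := by decide +kernel

theorem f4 : ∀ q ∈ [2, 4], ¬ 3 ^ 12 ∣ q ^ 24 * (q ^ 2 - 1) * (q ^ 6 - 1) * (q ^ 8 - 1) * (q ^ 12 - 1) := by decide +kernel

theorem e6 : ¬ 3 ^ 12 ∣ 2 ^ 36 * (2 ^ 2 - 1) * (2 ^ 5 - 1) * (2 ^ 6 - 1) * (2 ^ 8 - 1) * (2 ^ 9 - 1) * (2 ^ 12 - 1) := by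
  decide +kernel

theorem te6 : ¬ 3 ^ 12 ∣ 2 ^ 36 * (2 ^ 2 - 1) * (2 ^ 5 + 1) * (2 ^ 6 - 1) * (2 ^ 8 - 1) * (2 ^ 9 + 1) * (2 ^ 12 - 1) := by
  decide +kernel

theorem td4 : ∀ q ∈ [2, 4, 8, 16], ¬ 3 ^ 12 ∣ q ^ 12 * (q ^ 2 - 1) * (q ^ 6 - 1) * (q ^ 8 + q ^ 4 + 1) := by decide +kernel

theorem two_mod {m : ℕ} : 2 ^ (2 * m + 1) % 3 = 2 := by
  induction m with
  | zero => rfl
  | succ m ih =>
    have : 2 ^ (2 * (m + 1) + 1) = 2 ^ (2 * m + 1) * 4 := by ring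
    omega

theorem sz {m : ℕ} : ¬ 3 ∣ (2 ^ (2 * m + 1)) ^ 2 * (2 ^ (2 * m + 1) - 1) * ((2 ^ (2 * m + 1)) ^ 2 + 1) := by
  have h := two_mod (m := m)
  obtain ⟨q, hq⟩ : ∃ q, q = 2 ^ (2 * m + 1) := ⟨_, rfl⟩
  rw [← hq] at h ⊢
  intro hd
  have h1 : (q - 1) % 3 = 1 := by omega
  have h2 := Nat.mod_eq_zero_of_dvd hd
  rw [Nat.mul_mod, Nat.mul_mod (q ^ 2), h1, Nat.add_mod, Nat.pow_mod, h] at h2
  norm_num at h2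

theorem dvd_sq {n : ℕ} (hn : n ≠ 0) (h : 3 ^ 11 ∣ n ^ 2) : 3 ^ 6 ∣ n := by
  rw [Nat.Prime.pow_dvd_iff_le_factorization Nat.prime_three hn]
  rw [Nat.Prime.pow_dvd_iff_le_factorization Nat.prime_three (pow_ne_zero 2 hn), Nat.factorization_pow] at h
  simp only [Finsupp.coe_smul, Pi.smul_apply, smul_eq_mul] at h
  omega

theorem tf4 {m : ℕ} (h : 3 ^ 12 ∣ (2 ^ (2 * m + 1)) ^ 12 * (2 ^ (2 * m + 1) - 1) *
    ((2 ^ (2 * m + 1)) ^ 3 + 1) * ((2 ^ (2 * m + 1)) ^ 4 - 1) * ((2 ^ (2 * m + 1)) ^ 6 + 1)) : 3 ^ 6 ∣ 2 ^ (2 * m + 1) + 1 := by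
  have h0 := two_mod (m := m)
  obtain ⟨q, hq⟩ : ∃ q, q = 2 ^ (2 * m + 1) := ⟨_, rfl⟩
  rw [← hq] at h0 h ⊢
  obtain ⟨s, rfl⟩ : ∃ s, q = 3 * s + 2 := ⟨q / 3, by omega⟩
  have e1 : 3 * s + 2 - 1 = 3 * s + 1 := by omega
  have e2 : (3 * s + 2) ^ 3 + 1 = 3 * (3 * s + 3) * (3 * s ^ 2 + 3 * s + 1) := by ring
  have e3 : (3 * s + 2) ^ 4 - 1 = (3 * s + 1) * (3 * s + 3) * (9 * s ^ 2 + 12 * s + 5) := by
    have : (3 * s + 2) ^ 4 = (3 * s + 1) * (3 * s + 3) * (9 * s ^ 2 + 12 * s + 5) + 1 := by ring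
    omega
  rw [e1, e2, e3] at h
  have e4 : (3 * s + 2) ^ 12 * (3 * s + 1) * (3 * (3 * s + 3) * (3 * s ^ 2 + 3 * s + 1)) *
      ((3 * s + 1) * (3 * s + 3) * (9 * s ^ 2 + 12 * s + 5)) * ((3 * s + 2) ^ 6 + 1) =
      3 * ((3 * s + 3) ^ 2 * ((3 * s + 2) ^ 12 * (3 * s + 1) * (3 * s ^ 2 + 3 * s + 1) * (3 * s + 1) *
        (9 * s ^ 2 + 12 * s + 5) * ((3 * s + 2) ^ 6 + 1))) := by ring
  rw [e4, pow_succ' 3 11] at h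
  have h1 := Nat.dvd_of_mul_dvd_mul_left (by norm_num) h
  have hc : ∀ n : ℕ, n % 3 ≠ 0 → (3 ^ 11).Coprime n := by
    intro n hn
    refine Nat.Coprime.pow_left _ ((Nat.Prime.coprime_iff_not_dvd Nat.prime_three).2 fun hd => hn (Nat.mod_eq_zero_of_dvd hd))
  have c1 : (3 ^ 11).Coprime (3 * s + 2) := hc _ (by omega)
  have c2 : (3 ^ 11).Coprime (3 * s + 1) := hc _ (by omega)
  have c3 : (3 ^ 11).Coprime (3 * s ^ 2 + 3 * s + 1) := hc _ (by omega)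
  have c4 : (3 ^ 11).Coprime (9 * s ^ 2 + 12 * s + 5) := hc _ (by omega)
  have c5 : (3 ^ 11).Coprime ((3 * s + 2) ^ 6 + 1) := hc _ (by
    have : (3 * s + 2) ^ 6 + 1 = 3 * (243 * s ^ 6 + 972 * s ^ 5 + 1620 * s ^ 4 + 1440 * s ^ 3 + 720 * s ^ 2 + 192 * s + 21) + 2 := by
      ring
    omega)
  have h2 : 3 ^ 11 ∣ (3 * s + 3) ^ 2 := by
    refine Nat.Coprime.dvd_of_dvd_mul_right ?_ h1
    exact ((((((c1.pow_right 12).mul_right c2).mul_right c3).mul_right c2).mul_right c4).mul_right c5)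
  have := dvd_sq (by omega) h2
  convert this using 1

end Cfsg.Agent.H243.Arith
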