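import Cfsg.Agent.BabyU.F8Hex
import Cfsg.Agent.BabyM.InstMem

/-!
# S2243, the Baby Monster (1): the products of `Y` and a transposition of `Q` (helper243)

`Y = y1 y2 y5 y6 y9` is a transposition of `C` outside of `Q`.  A transposition `R(y)` of `Q` commuting with `Y` commutes with `Z3`
(then `Y R(y)` fixes the axis of the lane `1296`), or `R(y) Y` is conjugate in `C` to `R(y₀) Y`: there are 256 such lanes, and 13
words commuting with `Y` permute them transitively.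
-/

set_option autoImplicit false
set_option Elab.async false

namespace Cfsg.Agent.H243.EMBLane

open Cfsg.Agent.Lib.PermNet Cfsg.Agent.Monster Cfsg.Agent.Monster.VecEngine Cfsg.Agent.Monster.VecSpace
open Cfsg.Agent.Monster.PauliBasic Cfsg.Agent.Monster.PauliRep Cfsg.Agent.Monster.PauliClif Cfsg.Agent.Monster.PauliBits
open Cfsg.Agent.BabyM Cfsg.Agent.BabyM.KTabData Cfsg.Agent.BabyM.QAct Cfsg.Agent.BabyM.QData Cfsg.Agent.BabyM.QData.Good
open Cfsg.Agent.BabyM.Conc Cfsg.Agent.BabyM.KTab Cfsg.Agent.BabyM.KRow Cfsg.Agent.BabyM.KQ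
open Cfsg.Agent.BabyU.F8Base Cfsg.Agent.BabyU.F8HexW Cfsg.Agent.BabyU.F8Hex

/-- Words commuting with `Y`, with the images of the generators of the Pauli group. -/
def gens : List (List Ltr × ℕ) := [
  ([.y1], 0x2008005001fe0802080402220202300102c800824400432400221a001284000800000400000200000100000080000040000020000010000008000004000002000401),
  ([.y2], 0x20100010006508004404001502031401020c0080cc0040344023f9001000000a84000400000200000100000080000040000020000010000008000004000402000001),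
  ([.y3, .Z0], 0x20200210010308022204000a02003201014a0080430040a30020004017f9400a1a000400000200000100000080000040000020000010000008000404000002000001),
  ([.y4, .Z0], 0x2040001000310800610400640201b04103d70082620040000020a3001034400b24000400000200000100000080000040000020000010000408000004000002000001),
  ([.y5], 0x2080001001490802c00401424203af0100480080000042620020430010cc000a44000400000200000100000080000040000020000410000008000004000002000001),
  ([.y6], 0x21000810000b08008c04010902001d0100000080484047d700214a00120c000ac8000400000200000100000080000040000420000010000008000004000002000001),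
  ([.y7, .Z0], 0x22001010009308001a04021802000001001d4087af0041b0002032001314400a30000400000200000100000080000440000020000010000008000004000002000001),
  ([.y8], 0x24000010004108003004000002021801010900814200406400200a001015000a22000400000200000100000480000040000020000010000008000004000002000001),
  ([.y9], 0x28000010001508000004003002001a01008c0082c0004061002222001044000a08000400000200000500000080000040000020000010000008000004000002000001),
  ([.y10, .Z0], 0x30000110000008001504004102009301000b008149004031002103001065000dfe000400000600000100000080000040000020000010000008000004000002000001),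
  ([.h, .X3, .X7], 0x2000000230cc0090cc40736c10339c0100880810444433e40023d80010000008000004000000400000104000080002000000200001004000800002cc0003da000001),
  ([.p, .h, .p10, .Z0, .X2, .X3, .X6], 0x2000000c40340800001050610060b14102c40892480850114a52200010000818c800040000008000031d0002004000040000200000104002cc40004000009f000001),
  ([.p7, .h, .p, .Z0, .X7], 0x2000004439c708924808319d42a3ec4818c009188840e9fa503181088a8c0882c00004004000804003da4002cc0000404003b400002000000800020000031d40009f)]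

/-- The code of the root lane. -/
def c₀ : ℕ := 0x1ff8cf

/-- The other lanes: code, code of the parent, number of the word. -/
def tree : List (ℕ × ℕ × ℕ) := [
  (0x1ffc1d, 0x1ff8cf, 0), (0x1ffc66, 0x1ff8cf, 1), (0x1ffb9f, 0x1ff8cf, 2), (0x1fff4d, 0x1ff8cf, 3),
  (0x1ff94a, 0x1ff8cf, 4), (0x1ffcb4, 0x1ff8cf, 7), (0x1ffab3, 0x1ff8cf, 8), (0x1ffde3, 0x1ff8cf, 9),
  (0x17ea87, 0x1ff8cf, 11), (0x1ff998, 0x1ffc1d, 4), (0x1ffe61, 0x1ffc1d, 8), (0x1ff931, 0x1ffc1d, 9),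
  (0x17ec0c, 0x1ffc1d, 11), (0x17ef36, 0x1ffc1d, 12), (0x1fff36, 0x1ffc66, 2), (0x1fffe4, 0x1ffc66, 3),
  (0x1ffe1a, 0x1ffc66, 8), (0x17ee6a, 0x1ffc66, 11), (0x17ef68, 0x1ffc66, 12), (0x17e90e, 0x1ffb9f, 11),
  (0x17e9bd, 0x1ffb9f, 12), (0x1ffec8, 0x1fff4d, 4), (0x17ef85, 0x1fff4d, 11), (0x17ebdb, 0x1ff94a, 11),
  (0x17ece1, 0x1ffcb4, 11), (0x17eed9, 0x1ffcb4, 12), (0x17e8bf, 0x1ffab3, 11), (0x17e950, 0x17ea87, 3),
  (0x1f7993, 0x17ea87, 10), (0x17f28b, 0x17ea87, 12), (0x17ee34, 0x1ffe61, 11), (0x17ec52, 0x17ec0c, 0),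
  (0x1f7e80, 0x17ec0c, 10), (0x17f74d, 0x17ec0c, 12), (0x1f7caa, 0x17ef36, 10), (0x17f496, 0x17ef36, 12),
  (0x17ede3, 0x1fff36, 11), (0x1f7df6, 0x17ee6a, 10), (0x17f524, 0x17ee6a, 12), (0x1f7e3c, 0x17ef68, 10),
  (0x17f5e3, 0x17ef68, 12), (0x1f794a, 0x17e90e, 10), (0x17f38a, 0x17e90e, 12), (0x1f7bb9, 0x17e9bd, 10),
  (0x17f150, 0x17e9bd, 12), (0x1f7e59, 0x17ef85, 10), (0x17f64c, 0x17ef85, 12), (0x1f78cf, 0x17ebdb, 10),
  (0x17f339, 0x17ebdb, 12), (0x1f7ee5, 0x17ece1, 10), (0x17f4e2, 0x17ece1, 12), (0x1f7f05, 0x17eed9, 10),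
  (0x17f7fe, 0x17eed9, 12), (0x1f7873, 0x17e8bf, 10), (0x17f197, 0x17e8bf, 12), (0x1f7bdc, 0x17e950, 10),
  (0x17f2ff, 0x17e950, 12), (0x1f7c16, 0x1f7993, 4), (0x1f7d2f, 0x1f7993, 8), (0x1ef3bd, 0x1f7993, 12),
  (0x17f451, 0x17f28b, 0), (0x1f63df, 0x17f28b, 10), (0x17f8cf, 0x17f28b, 12), (0x1f7f60, 0x17ee34, 10),
  (0x17f638, 0x17ec52, 12), (0x1ef745, 0x1f7e80, 12), (0x17f425, 0x17f74d, 2), (0x1f64d1, 0x17f74d, 10),
  (0x17fc84, 0x17f74d, 12), (0x1ef764, 0x1f7caa, 12), (0x1f64d2, 0x17f496, 10), (0x17fef8, 0x17f496, 12),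
  (0x1ef6d6, 0x1f7df6, 12), (0x1f6630, 0x17f524, 10), (0x17ff67, 0x17f524, 12), (0x1ef415, 0x1f7e3c, 12),
  (0x1f652f, 0x17f5e3, 10), (0x17fc69, 0x17f5e3, 12), (0x1ef186, 0x1f794a, 12), (0x1f63ce, 0x17f38a, 10),
  (0x17fb8a, 0x17f38a, 12), (0x1ef39c, 0x1f7bb9, 12), (0x1f63dc, 0x17f150, 10), (0x17fab3, 0x17f150, 12),
  (0x1ef57e, 0x1f7e59, 12), (0x1f64c0, 0x17f64c, 10), (0x17ffc1, 0x17f64c, 12), (0x1ef20f, 0x1f78cf, 12),
  (0x1f613d, 0x17f339, 10), (0x17f950, 0x17f339, 12), (0x1ef62e, 0x1f7ee5, 12), (0x1f653e, 0x17f4e2, 10),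
  (0x17ff2c, 0x17f4e2, 12), (0x1ef4cc, 0x1f7f05, 12), (0x1f6622, 0x17f7fe, 10), (0x17fe5e, 0x17f7fe, 12),
  (0x1ef15f, 0x1f7873, 12), (0x1f60c3, 0x17f197, 10), (0x17f9bd, 0x17f197, 12), (0x1ef2f7, 0x1f7bdc, 12),
  (0x1f6233, 0x17f2ff, 10), (0x17f91b, 0x17f2ff, 12), (0x1ef434, 0x1f7c16, 12), (0x1ef4ed, 0x1f7d2f, 12),
  (0x1ef5a7, 0x1ef3bd, 0), (0x177314, 0x1ef3bd, 12), (0x1f67cd, 0x17f451, 10), (0x17fdf6, 0x17f451, 12),
  (0x1f6621, 0x1f63df, 9), (0x17738a, 0x1f63df, 11), (0x1ef939, 0x1f63df, 12), (0x17fe15, 0x17f8cf, 0),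
  (0x17fc22, 0x17f8cf, 1), (0x1f6b53, 0x17f8cf, 10), (0x1fea87, 0x17f8cf, 11), (0x1f652c, 0x17f638, 10),
  (0x177604, 0x1ef745, 12), (0x1eff76, 0x1f64d1, 12), (0x1f6e08, 0x17fc84, 10), (0x1fecd1, 0x17fc84, 11),
  (0x17752f, 0x1ef764, 12), (0x17769a, 0x1f64d2, 11), (0x1efcf4, 0x1f64d2, 12), (0x1f6f24, 0x17fef8, 10),
  (0x1feee9, 0x17fef8, 11), (0x1774b0, 0x1ef6d6, 12), (0x1774a1, 0x1f6630, 11), (0x1efe51, 0x1f6630, 12),
  (0x1f6fab, 0x17ff67, 10), (0x1fedf6, 0x17ff67, 11), (0x17753e, 0x1ef415, 12), (0x1efca1, 0x1f652f, 12),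
  (0x1f6e6d, 0x17fc69, 10), (0x1fec78, 0x17fc69, 11), (0x17739b, 0x1f63ce, 11), (0x1ef986, 0x1f63ce, 12),
  (0x1f6bce, 0x17fb8a, 10), (0x1fe95f, 0x17fb8a, 11), (0x17703f, 0x1ef39c, 12), (0x1efabb, 0x1f63dc, 12),
  (0x1f6a7f, 0x17fab3, 10), (0x1fe8bf, 0x17fab3, 11), (0x177615, 0x1f64c0, 11), (0x1effc9, 0x1f64c0, 12),
  (0x1f6e95, 0x17ffc1, 10), (0x1fef09, 0x17ffc1, 11), (0x17728b, 0x1ef20f, 12), (0x1771b1, 0x1f613d, 11),
  (0x1efb9c, 0x1f613d, 12), (0x1f6bdc, 0x17f950, 10), (0x1fe998, 0x17f950, 11), (0x1775a0, 0x1ef62e, 12),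
  (0x1efc1e, 0x1f653e, 12), (0x1f6ef0, 0x17ff2c, 10), (0x1fefa0, 0x17ff2c, 11), (0x177705, 0x1ef4cc, 12),
  (0x17742e, 0x1f6622, 11), (0x1efd6c, 0x1f6622, 12), (0x1f6e1a, 0x17fe5e, 10), (0x1fec16, 0x17fe5e, 11),
  (0x1ef84b, 0x1f60c3, 12), (0x1f6bb9, 0x17f9bd, 10), (0x1fe931, 0x17f9bd, 11), (0x1ef9d3, 0x1f6233, 12),
  (0x1f6a87, 0x17f91b, 10), (0x1febce, 0x17f91b, 11), (0x1ee0fb, 0x177314, 12), (0x1efe04, 0x1f67cd, 12),
  (0x1f6ee2, 0x17fdf6, 10), (0x1fef67, 0x17fdf6, 11), (0x1efeee, 0x1f6621, 12), (0x1ee302, 0x17738a, 12),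
  (0x1eff23, 0x1ef939, 0), (0x16e9b5, 0x1ef939, 11), (0x1ff198, 0x1ef939, 12), (0x1f6f41, 0x17fe15, 10),
  (0x1fee40, 0x17fe15, 11), (0x1f6f36, 0x17fc22, 10), (0x1fee2e, 0x17fc22, 11), (0x167b3d, 0x1f6b53, 12),
  (0x1ee701, 0x177604, 12), (0x16ef23, 0x1eff76, 11), (0x1ff4d2, 0x1eff76, 12), (0x167f0d, 0x1f6e08, 12),
  (0x1ee465, 0x17752f, 12), (0x1ee4f8, 0x17769a, 12), (0x16ee21, 0x1efcf4, 11), (0x1ff659, 0x1efcf4, 12),
  (0x167d6b, 0x1f6f24, 12), (0x1ee4d9, 0x1774b0, 12), (0x1ee466, 0x1774a1, 12), (0x16ecc0, 0x1efe51, 11),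
  (0x1ff53e, 0x1efe51, 12), (0x167e2d, 0x1f6fab, 12), (0x1ee4da, 0x17753e, 12), (0x16ee74, 0x1efca1, 11),
  (0x1ff4a6, 0x1efca1, 12), (0x167e66, 0x1f6e6d, 12), (0x1ee3bd, 0x17739b, 12), (0x16e997, 0x1ef986, 11),
  (0x1ff14a, 0x1ef986, 12), (0x167b46, 0x1f6bce, 12), (0x1ee39f, 0x17703f, 12), (0x16e8b7, 0x1efabb, 11),
  (0x1ff313, 0x1efabb, 12), (0x16795b, 0x1f6a7f, 12), (0x1ee7be, 0x177615, 12), (0x16ef01, 0x1effc9, 11),
  (0x1ff400, 0x1effc9, 12), (0x167f76, 0x1f6e95, 12), (0x1ee047, 0x17728b, 12), (0x1ee39c, 0x1771b1, 12),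
  (0x16eb54, 0x1efb9c, 11), (0x1ff2ff, 0x1efb9c, 12), (0x16787b, 0x1f6bdc, 12), (0x1ee723, 0x1775a0, 12),
  (0x16ee56, 0x1efc1e, 11), (0x1ff474, 0x1efc1e, 12), (0x167e1d, 0x1f6ef0, 12), (0x1ee444, 0x177705, 12),
  (0x1ee720, 0x17742e, 12), (0x16ede0, 0x1efd6c, 11), (0x1ff767, 0x1efd6c, 12), (0x167c30, 0x1f6e1a, 12),
  (0x16ea03, 0x1ef84b, 11), (0x1ff28b, 0x1ef84b, 12), (0x167910, 0x1f6bb9, 12), (0x16e9c2, 0x1ef9d3, 11),
  (0x1ff3b5, 0x1ef9d3, 12), (0x16784b, 0x1f6a87, 12), (0x16ec95, 0x1efe04, 11), (0x1ff7c1, 0x1efe04, 12),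
  (0x167d20, 0x1f6ee2, 12), (0x16ece2, 0x1efeee, 11), (0x1ff5ec, 0x1efeee, 12), (0x16ef76, 0x1eff23, 11),
  (0x1ff62d, 0x1eff23, 12), (0x1e7bb1, 0x16e9b5, 10), (0x167c00, 0x1f6f41, 12), (0x167e56, 0x1f6f36, 12),
  (0x1e79d8, 0x167b3d, 12), (0x1e7fef, 0x16ef23, 10), (0x1e7e4c, 0x167f0d, 12), (0x1e7c25, 0x16ee21, 10),
  (0x1e7e22, 0x167e2d, 12), (0x1e7de8, 0x16ee74, 10), (0x1e784b, 0x16e997, 10), (0x1e7986, 0x167b46, 12),
  (0x1e787b, 0x16e8b7, 10), (0x1e7c15, 0x16ef01, 10), (0x1e7e12, 0x167f76, 12), (0x1e7bdf, 0x16787b, 12),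
  (0x1e7db6, 0x167e1d, 12), (0x1e7e7c, 0x16ede0, 10), (0x1e7f81, 0x16ec95, 10)]

/-! ### The checks -/

/-- The check of a word. -/
noncomputable def okG (p : List Ltr × ℕ) : Bool :=
  and (p.1.all InstMem.noT) (and
    (check ((yw ++ p.1).map Ltr.prog) WordsInst.vB ((p.1 ++ yw).map Ltr.prog) WordsInst.vB)
    ((List.range 22).all fun k => and ((wd (im p.2 k)).all KQ.isq) (and (Nat.beq (cw (wd (im p.2 k))) (im p.2 k))
      (check ((qL k :: p.1).map Ltr.prog) WordsInst.vB ((p.1 ++ wd (im p.2 k)).map Ltr.prog) WordsInst.vB))))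

theorem gens_ok : gens.all okG = true := by decide +kernel

/-- membership -/
noncomputable def memN (m : ℕ) (l : List ℕ) : Bool :=
  List.rec (motive := fun _ => Bool) false (fun a _ ih => or (Nat.beq a m) ih) l

theorem mem_of_memN {m : ℕ} : ∀ {l : List ℕ}, memN m l = true → m ∈ l := by
  intro l
  induction l with
  | nil => intro h; exact absurd (show false = true from h) (by decide)
  | cons a l ih =>
    intro h
    have h' : or (Nat.beq a m) (memN m l) = true := h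
    rw [Bool.or_eq_true] at h'
    rcases h' with h' | h'
    · rw [Nat.eq_of_beq_eq_true h']; exact List.mem_cons_self
    · exact List.mem_cons_of_mem _ (ih h')

/-- The check of the tree. -/
noncomputable def okT (l : List (ℕ × ℕ × ℕ)) : List ℕ → Bool :=
  List.rec (motive := fun _ => List ℕ → Bool) (fun _ => true)
    (fun e _ ih known => and (memN e.2.1 known) (and (Nat.beq (wfold (fun k => 2 ^ k) e.2.1 pos 0) e.2.1)
      (and (Nat.beq (low (Nat.xor (wfold (im (gens.getD e.2.2 ([], 0)).2) e.2.1 pos 0) e.1)) 0)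
        (and (Nat.blt e.2.2 13) (ih (e.1 :: known)))))) l

theorem tree_ok : okT tree [c₀] = true := by decide +kernel

/-- the codes of the tree -/
def codes : List ℕ := c₀ :: tree.map fun e => e.1

/-- The check of a lane. -/
noncomputable def laneOK' (m : ℕ) : Bool :=
  seqB (wfold (im I_Y) m pos 0) fun am =>
    or (or (not (Nat.beq (low (mulK am m)) 0)) (KRow.tb (mulK am m) 22)) (or (not (KRow.tb m 14)) (memN m codes))

theorem lane_check : allN 12 (fun i => Bool.rec true (Bool.rec (laneOK' (cd i)) true (Nat.beq (cd i) 0)) (KRow.tb U i)) 0 =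
    true := by
  decide +kernel

theorem z3_check : check ((Ltr.Z3 :: yw).map Ltr.prog) WordsInst.vB ((yw ++ [Ltr.Z3]).map Ltr.prog) WordsInst.vB = true := by
  decide +kernel

theorem root_check : Nat.beq (wfold (fun k => 2 ^ k) c₀ pos 0) c₀ = true ∧ KRow.tb c₀ 14 = true ∧
    Nat.beq (wfold (im I_Y) c₀ pos 0) c₀ = true := by
  decide +kernel

/-! ### The words -/

theorem exists_aut {p : List Ltr × ℕ} (hp : p ∈ gens) : W p.1 ∈ Inst.M.C ∧ Y * W p.1 = W p.1 * Y ∧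
    ∃ α : MulAut (Pauli 11), (∀ x, W p.1 * Cd.R x = Cd.R (α x) * W p.1) ∧
      ∀ k < 22, α (dec 11 (2 ^ k)) = dec 11 (im p.2 k) := by
  have h := List.all_eq_true.mp gens_ok p hp
  unfold okG at h
  rw [Bool.and_eq_true, Bool.and_eq_true] at h
  obtain ⟨h1, h2, h3⟩ := h
  have hC : W p.1 ∈ Inst.M.C := InstMem.W_mem_C_of h1
  refine ⟨hC, ?_, ?_⟩
  · have h4 := eqw h2
    rw [W_append, W_append] at h4
    exact h4.symm
  · obtain ⟨α, hα, -⟩ := KFact.fact (W p.1) hC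
    refine ⟨α, hα, fun k hk => ?_⟩
    have h5 := List.all_eq_true.mp h3 k (List.mem_range.mpr hk)
    rw [Bool.and_eq_true, Bool.and_eq_true] at h5
    obtain ⟨h6, h7, h8⟩ := h5
    have h9 := eqw h8
    rw [W_append, W_cons, W_eq_R _ h6, Nat.eq_of_beq_eq_true h7, E_qL k hk] at h9
    apply Cd.R_injective
    exact mul_right_cancel ((hα _).symm.trans h9)

/-- `R(y) Y` is conjugate in `C` to `R(y₀) Y` -/
def Cj (y : Pauli 11) : Prop := ∃ g ∈ Inst.M.C, g * (Cd.R y * Y) * g⁻¹ = Cd.R (dec 11 c₀) * Y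

/-- All elements over the class of `c` are good. -/
def GG (c : ℕ) : Prop := ∀ y : Pauli 11, ab y = ab (dec 11 c) → Cj y

theorem Cj.of_conj {y y' : Pauli 11} {g : V ≃ₗ[ℚ] V} (hg : g ∈ Inst.M.C)
    (h : g * (Cd.R y * Y) * g⁻¹ = Cd.R y' * Y) (hy : Cj y) : Cj y' := by
  obtain ⟨k, hk, e⟩ := hy
  refine ⟨k * g⁻¹, Inst.M.C.mul_mem hk (Inst.M.C.inv_mem hg), ?_⟩
  rw [← h, ← e]
  group

theorem conj_gen {p : List Ltr × ℕ} (hp : p ∈ gens) : ∃ α : MulAut (Pauli 11),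
    (∀ y, W p.1 * (Cd.R y * Y) * (W p.1)⁻¹ = Cd.R (α y) * Y) ∧ ∀ k < 22, α (dec 11 (2 ^ k)) = dec 11 (im p.2 k) := by
  obtain ⟨-, h1, α, h2, h3⟩ := exists_aut hp
  refine ⟨α, fun y => ?_, h3⟩
  calc W p.1 * (Cd.R y * Y) * (W p.1)⁻¹ = (W p.1 * Cd.R y) * Y * (W p.1)⁻¹ := by group
    _ = Cd.R (α y) * (W p.1 * Y) * (W p.1)⁻¹ := by rw [h2]; group
    _ = Cd.R (α y) * Y := by rw [← h1]; group

theorem α_dec' {α : MulAut (Pauli 11)} {T : ℕ} (hI : ∀ k < 22, α (dec 11 (2 ^ k)) = dec 11 (im T k)) {m : ℕ}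
    (hm : wfold (fun k => 2 ^ k) m pos 0 = m) : α (dec 11 m) = dec 11 (wfold (im T) m pos 0) := by
  have h := wfold_sound hI m pos (by decide) 0 0 (by rw [dec_zero, map_one])
  rwa [hm] at h

theorem step {p : List Ltr × ℕ} (hp : p ∈ gens) {c d : ℕ} (hc : wfold (fun k => 2 ^ k) c pos 0 = c)
    (hd : low (Nat.xor (wfold (im p.2) c pos 0) d) = 0) (h : GG c) : GG d := by
  obtain ⟨α, h1, h2⟩ := conj_gen hp
  have h3 := α_dec' h2 hc
  have hC := (exists_aut hp).1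
  intro y hy
  have h4 : ab y = ab (α (dec 11 c)) := by rw [hy, h3, ab_eq_of_low hd]
  rcases (ab_eq_iff _ _).mp h4 with h5 | h5
  · rw [h5]
    exact Cj.of_conj hC (h1 (dec 11 c)) (h _ rfl)
  · have h6 : y = α (Pauli.z 11 * dec 11 c) := by rw [h5, map_mul, aut_z]
    rw [h6]
    exact Cj.of_conj hC (h1 _) (h _ ((ab_eq_iff _ _).mpr (Or.inr rfl)))

theorem tree_sound : ∀ (l : List (ℕ × ℕ × ℕ)) (known : List ℕ), okT l known = true → (∀ c ∈ known, GG c) →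
    ∀ e ∈ l, GG e.1 := by
  intro l
  induction l with
  | nil => intro _ _ _ e he; exact absurd he List.not_mem_nil
  | cons a l ih =>
    intro known h hk
    have h' : and (memN a.2.1 known) (and (Nat.beq (wfold (fun k => 2 ^ k) a.2.1 pos 0) a.2.1)
      (and (Nat.beq (low (Nat.xor (wfold (im (gens.getD a.2.2 ([], 0)).2) a.2.1 pos 0) a.1)) 0)
        (and (Nat.blt a.2.2 13) (okT l (a.1 :: known))))) = true := h
    rw [Bool.and_eq_true, Bool.and_eq_true, Bool.and_eq_true, Bool.and_eq_true] at h'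
    obtain ⟨h1, h2, h3, h4, h5⟩ := h'
    have h6 : a.2.2 < gens.length := by
      have : a.2.2 < 13 := by simpa [Nat.blt] using h4
      exact this
    have h7 : gens.getD a.2.2 ([], 0) ∈ gens := by
      rw [List.getD_eq_getElem _ _ h6]
      exact List.getElem_mem h6
    have h8 : GG a.1 := step h7 (Nat.eq_of_beq_eq_true h2) (Nat.eq_of_beq_eq_true h3) (hk _ (mem_of_memN h1))
    have h9 := ih (a.1 :: known) h5 (by
      intro c hc
      rcases List.mem_cons.mp hc with rfl | hc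
      · exact h8
      · exact hk c hc)
    intro e he
    rcases List.mem_cons.mp he with rfl | he
    · exact h8
    · exact h9 e he

/-! ### The root -/

theorem Y_Z3 : Y * Cd.R (dec 11 0x8) = Cd.R (dec 11 0x8) * Y := by
  have h := eqw z3_check
  rw [W_cons, W_append, W_single, E_Z3] at h
  exact h

theorem form_8' (m : ℕ) (y : Pauli 11) (hy : ab y = ab (dec 11 m)) (h : KRow.tb m 14 = true) :
    Pauli.form y (dec 11 0x8) = 1 := by
  have h8 : dec 11 0x8 = ⟨0, 0, PauliGates.dl 3⟩ := dec_Z (n := 11) 3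
  have ha : y.a = (dec 11 m).a := congrArg Prod.fst hy
  have h1 : (dec 11 m).a 3 = 1 := by
    show bit m (11 + 3) = 1
    rw [KRow.tb_eq] at h
    exact (bit_eq_one_iff _ _).mpr h
  rw [h8]
  unfold Pauli.form
  rw [dotProduct_zero, zero_add, ha]
  show PauliGates.dl 3 ⬝ᵥ (dec 11 m).a = 1
  rw [show PauliGates.dl (3 : Fin 11) = Pi.single 3 1 from rfl, single_dotProduct, one_mul, h1]

theorem GG_root : GG c₀ := by
  intro y hy
  have h1 : Cj (dec 11 c₀) := ⟨1, Inst.M.C.one_mem, by group⟩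
  rcases (ab_eq_iff _ _).mp hy with h | h
  · rw [h]; exact h1
  · rw [h]
    have hC : Cd.R (dec 11 0x8) ∈ Inst.M.C := Instance.all.grp.Q_le (KLink.link.mem_Q.mpr ⟨_, rfl⟩)
    refine Cj.of_conj hC ?_ h1
    have h2 : dec 11 0x8 * dec 11 c₀ = Pauli.z 11 * dec 11 c₀ * dec 11 0x8 := by
      have h3 := Pauli.mul_eq_mul_mul_form (dec 11 c₀) (dec 11 0x8)
      rw [form_8' c₀ _ rfl root_check.2.1] at h3
      have h4 : (⟨1, 0, 0⟩ : Pauli 11) = Pauli.z 11 := rfl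
      rw [h4] at h3
      rw [mul_assoc, h3, ← mul_assoc, Pauli.z_sq, one_mul]
    calc Cd.R (dec 11 0x8) * (Cd.R (dec 11 c₀) * Y) * (Cd.R (dec 11 0x8))⁻¹ =
        Cd.R (dec 11 0x8 * dec 11 c₀) * Y * (Cd.R (dec 11 0x8))⁻¹ := by rw [map_mul]; group
      _ = Cd.R (Pauli.z 11 * dec 11 c₀) * (Cd.R (dec 11 0x8) * Y) * (Cd.R (dec 11 0x8))⁻¹ := by
        rw [h2, map_mul]; group
      _ = Cd.R (Pauli.z 11 * dec 11 c₀) * Y := by rw [← Y_Z3]; group

theorem GG_codes : ∀ c ∈ codes, GG c := by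
  have h := tree_sound tree [c₀] tree_ok (by
    intro c hc
    rw [List.mem_singleton.mp hc]
    exact GG_root)
  intro c hc
  rcases List.mem_cons.mp hc with rfl | hc
  · exact GG_root
  · obtain ⟨e, he, rfl⟩ := List.mem_map.mp hc
    exact h e he

/-! ### The lanes -/

/-- `Y R(y)` fixes the axis of the lane `1296` if `R(y)` does. -/
theorem fix_form {y : Pauli 11} (h : Pauli.form y (dec 11 0x8) = 0) :
    (Y * Cd.R y) (W hw Inst.M.d₀) = W hw Inst.M.d₀ := by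
  have A := Instance.all
  have hC : W hw ∈ Inst.M.C := ConcGrp.W_mem_C (v := hw) rfl
  have hQ : Cd.R y ∈ Inst.M.Q := KLink.link.mem_Q.mpr ⟨y, rfl⟩
  have hq := A.grp.Q_normal' _ hC _ hQ
  have h1 : Cd.R y * Cd.R (dec 11 0x8) = Cd.R (dec 11 0x8) * Cd.R y := by
    rw [← map_mul, (Pauli.commute_iff _ _).mpr h, map_mul]
  have h2 : (W hw)⁻¹ * Cd.R y * W hw * Inst.M.t₀ = Inst.M.t₀ * ((W hw)⁻¹ * Cd.R y * W hw) := by
    rw [← hw_t₀] at h1
    calc (W hw)⁻¹ * Cd.R y * W hw * Inst.M.t₀ =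
        (W hw)⁻¹ * (Cd.R y * (W hw * Inst.M.t₀ * (W hw)⁻¹)) * W hw := by group
      _ = (W hw)⁻¹ * ((W hw * Inst.M.t₀ * (W hw)⁻¹) * Cd.R y) * W hw := by rw [h1]
      _ = _ := by group
  have h3 : ((W hw)⁻¹ * Cd.R y * W hw) Inst.M.d₀ = Inst.M.d₀ := by
    rw [Model.BData.d₀, map_add, A.rep.Q_u₀ _ hq, A.rep.Q_e₀_pos _ hq h2]
  have h4 : Cd.R y (W hw Inst.M.d₀) = W hw Inst.M.d₀ := by
    have h5 := congrArg (fun x => W hw x) h3
    simp only [LinearEquiv.mul_apply, apply_inv_self'] at h5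
    exact h5
  rw [LinearEquiv.mul_apply, h4, Y_fix]

/-- **The products of `Y` and a transposition of `Q`.** -/
theorem lanes {y : Pauli 11} {j : Lane U} (hj : Cd.isX j) (h : ab y = ab (Cd.c j))
    (hu : (Y * Cd.R y) * (Y * Cd.R y) = 1) :
    (∃ g ∈ Inst.M.C, (Y * Cd.R y) (g Inst.M.d₀) = g Inst.M.d₀) ∨ Cj y := by
  rw [isX_iff] at hj
  rw [c_eq] at h
  have h0 := allN_spec lane_check (Nat.zero_le j.1) (by rw [zero_add]; exact hj.1)
  have hw0 := allN_spec word_check (Nat.zero_le j.1) (by rw [zero_add]; exact hj.1)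
  simp only [KRow.tb_eq, j.2] at h0 hw0
  have hm : wfold (fun k => 2 ^ k) (cd j.1) pos 0 = cd j.1 := Nat.eq_of_beq_eq_true hw0
  have hz : Nat.beq (cd j.1) 0 = false := by
    rw [Bool.eq_false_iff]
    intro hh
    exact hj.2 (Nat.eq_of_beq_eq_true hh)
  rw [hz] at h0
  have h1 : laneOK' (cd j.1) = true := h0
  obtain ⟨α, hα, hI⟩ := exists_α
  have hma := α_dec' hI hm
  set m := cd j.1 with hm_def
  unfold laneOK' at h1
  rw [seqB_eq] at h1
  set am := wfold (im I_Y) m pos 0 with ham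
  rw [Bool.or_eq_true, Bool.or_eq_true, Bool.or_eq_true] at h1
  have h2 : dec 11 (mulK am m) = 1 := by
    rw [mulK_eq, dec_mulN (by norm_num), ← hma]
    rw [sq_eq hα] at hu
    have h2 : α y * y = 1 := Cd.R_injective (by rw [hu, map_one])
    rw [← h2]
    rcases (ab_eq_iff _ _).mp h with h3 | h3
    · rw [h3]
    · rw [h3, map_mul, aut_z]
      calc α (dec 11 m) * dec 11 m = Pauli.z 11 * Pauli.z 11 * (α (dec 11 m) * dec 11 m) := by
            rw [Pauli.z_sq, one_mul]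
        _ = Pauli.z 11 * (Pauli.z 11 * α (dec 11 m)) * dec 11 m := by simp only [mul_assoc]
        _ = Pauli.z 11 * (α (dec 11 m) * Pauli.z 11) * dec 11 m := by
            rw [show Pauli.z 11 * α (dec 11 m) = α (dec 11 m) * Pauli.z 11 by rw [Pauli.mul_z, Pauli.z_mul]]
        _ = _ := by simp only [mul_assoc]
  rcases h1 with (h1 | h1) | h1 | h1
  · exfalso
    have h3 : low (mulK am m) = 0 := by rw [low_eq_zero, h2]; rfl
    rw [h3] at h1
    exact absurd h1 (by decide)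
  · exfalso
    have h3 : bit (mulK am m) 22 = 0 := congrArg Pauli.s h2
    rw [KRow.tb_eq, ← bit_eq_one_iff, h3] at h1
    exact absurd h1 (by decide)
  · left
    refine ⟨W hw, ConcGrp.W_mem_C (v := hw) rfl, fix_form ?_⟩
    refine form_8 m y h ?_
    cases h3 : KRow.tb m 14 with
    | false => rfl
    | true => rw [h3] at h1; exact absurd h1 (by decide)
  · right
    exact GG_codes m (mem_of_memN h1) y h

/-- `Y` commutes with `R(y₀)` -/
theorem Y_root : Y * Cd.R (dec 11 c₀) = Cd.R (dec 11 c₀) * Y := by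
  obtain ⟨α, hα, hI⟩ := exists_α
  obtain ⟨h1, -, h2⟩ := root_check
  rw [hα, α_dec' hI (Nat.eq_of_beq_eq_true h1), Nat.eq_of_beq_eq_true h2]

end Cfsg.Agent.H243.EMBLane
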