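import Cfsg.Agent.H243.EMBLane
import Cfsg.Agent.BabyU.F8Inner

/-!
# S2243, the Baby Monster (2): the involutions of the concrete model (helper243)

`Facts` : an elementary abelian group `⟨z, Y, w⟩` of the Baby Monster with which all classes of involutions can be found.
-/

set_option autoImplicit false

open Subgroup

namespace Cfsg.Agent.H243.EMBModel

open Cfsg.Agent.BabyU.Clos

/-! ### Abstract part -/

section Abs

variable {G : Type*} [Group G] {P M : Subgroup G} {z t t₁ : G}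

/-- A fixed point of an involution on a set of odd cardinality. -/
theorem exists_fix {α : Type*} (h : Odd (Nat.card α)) (f : α → α) (hf : ∀ x, f (f x) = x) : ∃ x, f x = x := by
  have hfin : Finite α := by
    by_contra hc
    rw [not_finite_iff_infinite] at hc
    rw [Nat.card_eq_zero_of_infinite] at h
    exact absurd h (by decide)
  have := Fintype.ofFinite α
  have : Fact (Nat.Prime 2) := ⟨Nat.prime_two⟩
  classical
  let σ : Equiv.Perm α := ⟨f, f, hf, hf⟩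
  have hσ : σ ^ 2 ^ 1 = 1 := by
    rw [pow_one, pow_two]
    ext x
    exact hf x
  obtain ⟨x, hx⟩ := Equiv.Perm.exists_fixed_point_of_prime (p := 2) (n := 1) (by
    rw [← Nat.card_eq_fintype_card]
    exact h.not_two_dvd_nat) hσ
  exact ⟨x, hx⟩

/-- **Reduction**: an involution is conjugate into `M`, or to `t d` with a transposition `d` commuting with `t` and `z`. -/
theorem reduce (I : Inner ⊤ P M z t t₁) {u : G} (hu : u * u = 1) (hu1 : u ≠ 1) :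
    (∃ h : G, h⁻¹ * u * h ∈ M) ∨
      ∃ h d : G, d ∈ cls ⊤ t ∧ d * t = t * d ∧ d * z = z * d ∧ d ∉ P ∧ h * u * h⁻¹ = t * d := by
  rcases I.classes u (mem_top _) hu hu1 with ⟨h, -, h1⟩ | ⟨d, ⟨h, -, rfl⟩, h1, h2⟩
  · exact Or.inl ⟨h, h1⟩
  -- `v = h⁻¹ u h = t e`
  obtain ⟨e, he⟩ : ∃ e, e = h⁻¹ * u * h * t := ⟨_, rfl⟩
  have hvt : h⁻¹ * u * h * t = t * (h⁻¹ * u * h) := by
    calc h⁻¹ * u * h * t = h⁻¹ * (u * (h * t * h⁻¹)) * h := by group
      _ = h⁻¹ * (h * t * h⁻¹ * u) * h := by rw [h1]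
      _ = t * (h⁻¹ * u * h) := by group
  have hecls : e ∈ cls ⊤ t := by
    have h3 := cls_conj' h2 (mem_top h)
    have h4 : h⁻¹ * (u * (h * t * h⁻¹)) * h = e := by rw [he]; group
    rwa [h4] at h3
  have het : e * t = t * e := by
    rw [he]
    calc h⁻¹ * u * h * t * t = t * (h⁻¹ * u * h) * t := by rw [hvt]
      _ = t * (h⁻¹ * u * h * t) := by rw [mul_assoc t]
  have hv : h⁻¹ * u * h = t * e := by
    rw [he, hvt, ← mul_assoc, I.t_sq, one_mul]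
  have hee : e * e = 1 := cl_sq I.t_sq (cls_sub _ _ hecls)
  have hei : e⁻¹ = e := inv_eq_of_mul_eq_one_left hee
  by_cases heM : e ∈ M
  · exact Or.inl ⟨h, by rw [hv]; exact M.mul_mem I.tM heM⟩
  right
  -- a fixed transposition of `M`
  obtain ⟨⟨s, hs, hsM, hst⟩, hfix⟩ := exists_fix I.odd
    (fun s => ⟨e * s.1 * e⁻¹, cls_conj s.2.1 (mem_top e), I.M_norm e (mem_top e) het _ s.2.2.1, by
      intro h3
      apply s.2.2.2
      have h4 : s.1 = e⁻¹ * (e * s.1 * e⁻¹) * e := by group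
      rw [h4, h3, hei, mul_assoc, ← het, ← mul_assoc, hee, one_mul]⟩)
    (fun s => Subtype.ext (by
      show e * (e * s.1 * e⁻¹) * e⁻¹ = s.1
      rw [hei]
      calc e * (e * s.1 * e) * e = (e * e) * s.1 * (e * e) := by group
        _ = s.1 := by rw [hee, one_mul, mul_one]))
  have hes : e * s * e⁻¹ = s := congrArg Subtype.val hfix
  obtain ⟨g, -, hgt, hgs⟩ := I.adj s hs hsM hst
  have hgt' : g⁻¹ * t * g = t := by
    calc g⁻¹ * t * g = g⁻¹ * (g * t) := by rw [mul_assoc, ← hgt]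
      _ = t := by group
  have hgi : g⁻¹ * t = t * g⁻¹ := by
    calc g⁻¹ * t = (g⁻¹ * t * g) * g⁻¹ := by group
      _ = t * g⁻¹ := by rw [hgt']
  have hdt : g⁻¹ * e * g * t = t * (g⁻¹ * e * g) := by
    calc g⁻¹ * e * g * t = g⁻¹ * e * (g * t) := by group
      _ = g⁻¹ * (e * t) * g := by rw [hgt]; group
      _ = (g⁻¹ * t) * e * g := by rw [het]; group
      _ = t * (g⁻¹ * e * g) := by rw [hgi]; group
  have hdtz : g⁻¹ * e * g * (t * z) = t * z * (g⁻¹ * e * g) := by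
    have h3 : t * z = g⁻¹ * s * g := by rw [← hgs]; group
    rw [h3]
    calc g⁻¹ * e * g * (g⁻¹ * s * g) = g⁻¹ * (e * s * e⁻¹) * e * g := by group
      _ = g⁻¹ * s * g * (g⁻¹ * e * g) := by rw [hes]; group
  refine ⟨g⁻¹ * h⁻¹, g⁻¹ * e * g, cls_conj' hecls (mem_top g), hdt, ?_, ?_, ?_⟩
  · have h3 : t * (g⁻¹ * e * g * z) = t * (z * (g⁻¹ * e * g)) := by
      rw [← mul_assoc, ← hdt, mul_assoc, hdtz, mul_assoc]
    exact mul_left_cancel h3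
  · intro hP
    apply heM
    have h3 := I.PM _ hP hdt
    have h4 := I.M_norm g (mem_top g) hgt _ h3
    have h5 : g * (g⁻¹ * e * g) * g⁻¹ = e := by group
    rwa [h5] at h4
  · calc g⁻¹ * h⁻¹ * u * (g⁻¹ * h⁻¹)⁻¹ = g⁻¹ * (h⁻¹ * u * h) * g := by group
      _ = (g⁻¹ * t) * e * g := by rw [hv]; group
      _ = t * (g⁻¹ * e * g) := by rw [hgi]; group

end Abs

/-! ### The concrete model -/

open Cfsg.Agent.BabyM Cfsg.Agent.BabyM.Model Cfsg.Agent.BabyM.Conc Cfsg.Agent.BabyU.ClosModel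
open Cfsg.Agent.Monster.PauliBasic Cfsg.Agent.Monster.PauliRep Cfsg.Agent.Monster.PauliClif Cfsg.Agent.Monster.PauliBits
open Cfsg.Agent.BabyM.QAct Cfsg.Agent.BabyM.KTab Cfsg.Agent.BabyM.KRow Cfsg.Agent.BabyM.QData.Good
open Cfsg.Agent.BabyU.F8HexW Cfsg.Agent.H243.EMBLane

/-- The axis of a transposition of `C` outside of `Q`. -/
theorem axis {g : V ≃ₗ[ℚ] V} (hg : g ∈ Inst.M.G) (hz : (g * Inst.M.t₀ * g⁻¹) * Inst.M.z = Inst.M.z * (g * Inst.M.t₀ * g⁻¹))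
    (hQ : g * Inst.M.t₀ * g⁻¹ ∉ Inst.M.Q) : ∃ c ∈ Inst.M.C, g Inst.M.d₀ = c (Inst.d 1) := by
  have A := Instance.all
  have h1 := BabyU.F8Inner.inner.zM ⟨g, hg⟩ (mem_top _) (Subtype.ext hz)
  have h2 : (g⁻¹ * Inst.M.z * g) Inst.M.d₀ = Inst.M.d₀ := h1
  have h3 : Inst.M.z (g Inst.M.d₀) = g Inst.M.d₀ := by
    have h4 := congrArg (fun x => g x) h2
    simp only [LinearEquiv.mul_apply, BabyU.F8Base.apply_inv_self'] at h4
    exact h4
  obtain ⟨j, c, hc, e⟩ := (A.D_eq _).2 ⟨g, hg, rfl⟩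
  have h5 : Inst.M.z (Inst.M.d j) = Inst.M.d j := by
    rw [e, ← LinearEquiv.mul_apply, ← A.grp.z_comm c hc, LinearEquiv.mul_apply] at h3
    exact c.injective h3
  refine ⟨c, hc, ?_⟩
  change Fin 5 at j
  fin_cases j
  · exfalso
    apply hQ
    have h6 := A.conj_t 1 g c Inst.M.Γ.one_mem (A.G_le hg) (A.C_le hc) (Or.inl (by rw [e, A.d₀_eq]; rfl))
    rw [one_mul, inv_one, mul_one] at h6
    rw [h6]
    exact A.grp.Q_normal c hc _ A.rep.t₀_mem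
  · exact e
  · exact absurd h5 InstZ.z_d2
  · exact absurd h5 InstZ.z_d3
  · exact absurd h5 InstZ.z_d4

theorem gw_mem : W gw ∈ Inst.M.G := InstMem.W_mem_G gw

theorem im_check : Nat.beq (im I_Y 1) 2 = false ∧ Nat.blt (im I_Y 1) (2 ^ 22) = true := by decide +kernel

theorem Y_notin : Y ∉ Inst.M.Q := by
  intro h
  obtain ⟨x, hx⟩ := KLink.link.mem_Q.mp h
  have h1 := rel 1 (by norm_num)
  have h2 : ab (dec 11 (2 ^ 1)) = ab (dec 11 (im I_Y 1)) := by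
    rw [← hx, ← map_mul, ← map_mul] at h1
    have h3 := congrArg ab (Cd.R_injective h1)
    rw [ab_mul, ab_mul, add_comm] at h3
    exact add_right_cancel h3
  obtain ⟨h4, h5⟩ := im_check
  have h6 := eq_of_ab_dec (by norm_num) (by simpa [Nat.blt] using h5) h2
  rw [← h6] at h4
  exact absurd h4 (by decide)

/-- **The transpositions of `C` outside of `Q` are conjugate in `C`.** -/
theorem out {g : V ≃ₗ[ℚ] V} (hg : g ∈ Inst.M.G) (hz : (g * Inst.M.t₀ * g⁻¹) * Inst.M.z = Inst.M.z * (g * Inst.M.t₀ * g⁻¹))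
    (hQ : g * Inst.M.t₀ * g⁻¹ ∉ Inst.M.Q) : ∃ c ∈ Inst.M.C, c * (g * Inst.M.t₀ * g⁻¹) * c⁻¹ = Y := by
  have A := Instance.all
  obtain ⟨c, hc, e⟩ := axis hg hz hQ
  have hYz : Y * Inst.M.z = Inst.M.z * Y := A.grp.z_comm Y Y_mem_C
  obtain ⟨c', hc', e'⟩ := axis gw_mem (by rw [← Y_trans]; exact hYz) (by rw [← Y_trans]; exact Y_notin)
  refine ⟨c' * c⁻¹, Inst.M.C.mul_mem hc' (Inst.M.C.inv_mem hc), ?_⟩
  have hcc := Inst.M.C.mul_mem hc' (Inst.M.C.inv_mem hc)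
  rw [A.conj_t (c' * c⁻¹) g (W gw) (A.C_le hcc) (A.G_le hg) (A.G_le gw_mem) (Or.inl (by
    rw [e, e', LinearEquiv.mul_apply, BabyU.F8Base.inv_apply_self']))]
  exact Y_trans.symm

/-! ### The facts -/

/-- The facts: `z`, `Y`, `w` commuting involutions, `t` a transposition with the group `M`. -/
structure EFacts {X : Type*} [Group X] (t : X) (M : Subgroup X) (z Y w : X) : Prop where
  zz : z * z = 1
  YY : Y * Y = 1
  ww : w * w = 1
  Yz : Y * z = z * Y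
  wz : w * z = z * w
  Yw : Y * w = w * Y
  tY : IsConj t Y
  adj : ∀ s, IsConj t s → s ∈ M → s ≠ t → IsConj z (t * s)
  out : ∀ a, IsConj t a → a * z = z * a → IsConj (a * z) (Y * z) ∨ IsConj t (a * z)
  two : ∀ u, u * u = 1 → u ≠ 1 → (∃ h, h⁻¹ * u * h ∈ M) ∨ IsConj u (Y * w)

theorem isConj_mk {G : Type*} [Group G] {a b g : G} (h : g * a * g⁻¹ = b) : IsConj a b := isConj_iff.2 ⟨g, h⟩

/-- `Y` in the group of the model -/
noncomputable def Yg : Inst.M.G := ⟨Y, Instance.all.C_le_G Y_mem_C⟩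

theorem R_mem (y : Pauli 11) : Cd.R y ∈ Inst.M.Q := KLink.link.mem_Q.mpr ⟨y, rfl⟩

/-- `R(y₀)` in the group of the model -/
noncomputable def wg : Inst.M.G := ⟨Cd.R (dec 11 c₀), Instance.all.C_le_G (Instance.all.grp.Q_le (R_mem _))⟩

theorem w_check : Nat.beq (mulK c₀ c₀) 0 = true := by decide +kernel

theorem model : EFacts (tt Instance.all) (MM Inst.M) (zz Instance.all) Yg wg := by
  have A := Instance.all
  have I := BabyU.F8Inner.inner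
  have hYQ : Yg ∉ PP Inst.M := Y_notin
  refine ⟨I.z_sq, Subtype.ext Y_sq, ?_, ?_, ?_, ?_, ?_, ?_, ?_, ?_⟩
  · apply Subtype.ext
    show Cd.R (dec 11 c₀) * Cd.R (dec 11 c₀) = 1
    rw [← map_mul, ← dec_mulN (by norm_num), ← mulK_eq, Nat.eq_of_beq_eq_true w_check, dec_zero, map_one]
  · exact Subtype.ext (A.grp.z_comm Y Y_mem_C)
  · exact Subtype.ext (A.grp.z_comm _ (A.grp.Q_le (R_mem _)))
  · exact Subtype.ext Y_root
  · exact isConj_iff.2 ⟨⟨W gw, gw_mem⟩, Subtype.ext Y_trans.symm⟩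
  · intro s hs hsM hst
    obtain ⟨c, hc⟩ := isConj_iff.1 hs
    obtain ⟨h, -, h1, rfl⟩ := I.adj s ⟨c, mem_top _, hc⟩ hsM hst
    refine isConj_mk (g := h) ?_
    calc h * zz Instance.all * h⁻¹ = h * (tt Instance.all * tt Instance.all) * zz Instance.all * h⁻¹ := by
          rw [I.t_sq, mul_one]
      _ = (h * tt Instance.all) * (tt Instance.all * zz Instance.all) * h⁻¹ := by group
      _ = _ := by rw [h1]; group
  · intro a ha haz
    obtain ⟨g, rfl⟩ := isConj_iff.1 ha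
    by_cases hQ : g * tt Instance.all * g⁻¹ ∈ PP Inst.M
    · right
      obtain ⟨c, hc, h1⟩ := ClosQ.exists_C A Instance.tr g.2 hQ
      obtain ⟨c', hc', h2⟩ := ClosQ.mul_z_mem A hc
      refine isConj_mk (g := ⟨c', A.C_le_G hc'⟩) (Subtype.ext ?_)
      show c' * Inst.M.t₀ * c'⁻¹ = (g : V ≃ₗ[ℚ] V) * Inst.M.t₀ * (g : V ≃ₗ[ℚ] V)⁻¹ * Inst.M.z
      rw [h2, h1]
    · left
      obtain ⟨c, hc, h1⟩ := out g.2 (congrArg Subtype.val haz) hQ
      refine isConj_mk (g := ⟨c, A.C_le_G hc⟩) (Subtype.ext ?_)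
      show c * ((g : V ≃ₗ[ℚ] V) * Inst.M.t₀ * (g : V ≃ₗ[ℚ] V)⁻¹ * Inst.M.z) * c⁻¹ = Y * Inst.M.z
      have h2 := A.grp.z_comm c⁻¹ (Inst.M.C.inv_mem hc)
      rw [← h1]
      calc c * ((g : V ≃ₗ[ℚ] V) * Inst.M.t₀ * (g : V ≃ₗ[ℚ] V)⁻¹ * Inst.M.z) * c⁻¹ =
          c * ((g : V ≃ₗ[ℚ] V) * Inst.M.t₀ * (g : V ≃ₗ[ℚ] V)⁻¹) * (Inst.M.z * c⁻¹) := by group
        _ = c * ((g : V ≃ₗ[ℚ] V) * Inst.M.t₀ * (g : V ≃ₗ[ℚ] V)⁻¹) * (c⁻¹ * Inst.M.z) := by rw [h2]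
        _ = _ := by group
  · intro u hu hu1
    rcases reduce I hu hu1 with h | ⟨h, d, ⟨g, -, hg⟩, hdt, hdz, hdP, hud⟩
    · exact Or.inl h
    obtain ⟨c, hc, h1⟩ := out (g := g) g.2 (by
      have h2 := congrArg Subtype.val hdz
      rw [← hg] at h2
      exact h2) (by
      intro h2
      apply hdP
      rw [← hg]
      exact h2)
    -- the transposition of `Q`
    have hcG := A.C_le_G hc
    have hdc : c * (d : V ≃ₗ[ℚ] V) * c⁻¹ = Y := by rw [← h1, ← hg]; rfl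
    obtain ⟨y, j, hj, hy, hR⟩ := ClosQ.exists_lane KLink.link A Instance.tr (x := c * Inst.M.t₀ * c⁻¹) ⟨c, hcG, rfl⟩
      (A.grp.Q_normal c hc _ A.rep.t₀_mem)
    have hYR : Y * Cd.R y = Cd.R y * Y := by
      rw [hR, ← hdc]
      have h2 : (d : V ≃ₗ[ℚ] V) * Inst.M.t₀ = Inst.M.t₀ * (d : V ≃ₗ[ℚ] V) := congrArg Subtype.val hdt
      calc c * (d : V ≃ₗ[ℚ] V) * c⁻¹ * (c * Inst.M.t₀ * c⁻¹) = c * ((d : V ≃ₗ[ℚ] V) * Inst.M.t₀) * c⁻¹ := by group
        _ = c * (Inst.M.t₀ * (d : V ≃ₗ[ℚ] V)) * c⁻¹ := by rw [h2]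
        _ = _ := by group
    have hRR : Cd.R y * Cd.R y = 1 := by
      rw [hR]
      calc c * Inst.M.t₀ * c⁻¹ * (c * Inst.M.t₀ * c⁻¹) = c * (Inst.M.t₀ * Inst.M.t₀) * c⁻¹ := by group
        _ = 1 := by rw [A.rep.t₀_sq]; group
    have hsq : (Y * Cd.R y) * (Y * Cd.R y) = 1 := by
      calc (Y * Cd.R y) * (Y * Cd.R y) = Y * (Cd.R y * Y) * Cd.R y := by group
        _ = (Y * Y) * (Cd.R y * Cd.R y) := by rw [← hYR]; group
        _ = 1 := by rw [Y_sq, hRR, one_mul]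
    -- `u` is conjugate to `Y R(y)`
    have hu' : (⟨c, hcG⟩ * h) * u * (⟨c, hcG⟩ * h)⁻¹ =
        (⟨Y * Cd.R y, Inst.M.G.mul_mem (A.C_le_G Y_mem_C) (A.C_le_G (A.grp.Q_le (R_mem y)))⟩ : Inst.M.G) := by
      have h2 : (⟨c, hcG⟩ * h) * u * (⟨c, hcG⟩ * h)⁻¹ = (⟨c, hcG⟩ : Inst.M.G) * (h * u * h⁻¹) * (⟨c, hcG⟩ : Inst.M.G)⁻¹ := by
        group
      rw [h2, hud]
      apply Subtype.ext
      show c * (Inst.M.t₀ * (d : V ≃ₗ[ℚ] V)) * c⁻¹ = Y * Cd.R y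
      rw [hYR, hR, ← hdc]
      group
    rcases lanes hj hy hsq with ⟨k, hk, hfix⟩ | ⟨k, hk, hkY⟩
    · left
      refine ⟨(⟨c, hcG⟩ * h)⁻¹ * ⟨k, A.C_le_G hk⟩, ?_⟩
      have h2 : ((⟨c, hcG⟩ * h)⁻¹ * (⟨k, A.C_le_G hk⟩ : Inst.M.G))⁻¹ * u * ((⟨c, hcG⟩ * h)⁻¹ * ⟨k, A.C_le_G hk⟩) =
          (⟨k, A.C_le_G hk⟩ : Inst.M.G)⁻¹ * ((⟨c, hcG⟩ * h) * u * (⟨c, hcG⟩ * h)⁻¹) * ⟨k, A.C_le_G hk⟩ := by group
      rw [h2, hu']
      show (k⁻¹ * (Y * Cd.R y) * k) Inst.M.d₀ = Inst.M.d₀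
      rw [LinearEquiv.mul_apply, LinearEquiv.mul_apply, hfix, BabyU.F8Base.inv_apply_self']
    · right
      refine (isConj_mk hu').trans (isConj_mk (g := ⟨k, A.C_le_G hk⟩) (Subtype.ext ?_))
      show k * (Y * Cd.R y) * k⁻¹ = Y * Cd.R (dec 11 c₀)
      rw [hYR, hkY, Y_root]

end Cfsg.Agent.H243.EMBModel
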