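import Mathlib
import Cfsg.Agent.H277.EM.Univ
import Cfsg.Agent.H831.UnfFi22
import Cfsg.Agent.S2053

/-!
# S2243: the row `Fi₂₂` (helper243)

Seven commuting transpositions have product one. So the square `z` of a lift of a transposition is equal to
the commutator `w` of lifts of two commuting transpositions. If `z = 1` every involution lifts to an involution,
otherwise only the products of three commuting transpositions do.
-/

set_option autoImplicit false

namespace Cfsg.Agent.H243.EMFi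

open Subgroup Cfsg Cfsg.Agent.H51.Mult Cfsg.Agent.H277.MI
open Cfsg.Agent.R01 Cfsg.Agent.R01.FiFusion Cfsg.Agent.R01.FiFacts
open Cfsg.Agent.R01.Fi22Facts

universe u

section list

variable {L : Type u} [Group L]

theorem mul_list {w : L} (hw : ∀ g, g * w = w * g) {y : L} : ∀ l : List L,
    (∀ r ∈ l, r * y = w * (y * r)) → l.prod * y = w ^ l.length * (y * l.prod) := by
  have hp : ∀ (n : ℕ) (g : L), g * w ^ n = w ^ n * g := by
    intro n g
    exact (show Commute g w from hw g).pow_right n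
  intro l
  induction l with
  | nil => intro _; simp
  | cons r t ih =>
    intro h
    have h1 := h r List.mem_cons_self
    have h2 := ih fun s hs => h s (List.mem_cons_of_mem _ hs)
    rw [List.prod_cons, List.length_cons]
    calc r * t.prod * y = r * (t.prod * y) := by group
      _ = (r * w ^ t.length) * (y * t.prod) := by rw [h2]; group
      _ = w ^ t.length * (r * y) * t.prod := by rw [hp]; group
      _ = w ^ t.length * w * (y * (r * t.prod)) := by rw [h1]; group
      _ = _ := by rw [← pow_succ]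

theorem sq_list {z w : L} (hw : ∀ g, g * w = w * g) (hz : ∀ g, g * z = z * g) : ∀ l : List L,
    (∀ r ∈ l, r * r = z) → l.Pairwise (fun y r => r * y = w * (y * r)) →
    l.prod * l.prod = z ^ l.length * w ^ (l.length.choose 2) := by
  have hp : ∀ (n : ℕ) (g : L), g * w ^ n = w ^ n * g := by
    intro n g
    exact (show Commute g w from hw g).pow_right n
  have hpz : ∀ (n : ℕ) (g : L), g * z ^ n = z ^ n * g := by
    intro n g
    exact (show Commute g z from hz g).pow_right n
  intro l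
  induction l with
  | nil => intro _ _; simp
  | cons y t ih =>
    intro h h'
    rw [List.pairwise_cons] at h'
    have h1 := ih (fun s hs => h s (List.mem_cons_of_mem _ hs)) h'.2
    have h2 := mul_list hw t h'.1
    have h3 := h y List.mem_cons_self
    rw [List.prod_cons, List.length_cons, Nat.choose_succ_succ' t.length 1, Nat.choose_one_right]
    calc y * t.prod * (y * t.prod) = y * (t.prod * y) * t.prod := by group
      _ = (y * w ^ t.length) * y * (t.prod * t.prod) := by rw [h2]; group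
      _ = w ^ t.length * (y * y) * (t.prod * t.prod) := by rw [hp]; group
      _ = w ^ t.length * z * (z ^ t.length * w ^ t.length.choose 2) := by rw [h3, h1]
      _ = w ^ t.length * z ^ (t.length + 1) * w ^ t.length.choose 2 := by rw [pow_succ']; group
      _ = _ := by rw [← hp, pow_add w]; group

end list

theorem crow_fi22' : CRow Spor.Fi22 := by
  intro L _ _ π hπ hp
  have h2 : ∀ z ∈ π.ker, z * z = 1 := expTwo_of_cyclic S2053.result (by decide) L π hπ hp
  have tf : TFacts T := Cfsg.Agent.R08.AutT.tFacts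
  obtain ⟨x, hxT, hxc, hxn, hxp⟩ := Cfsg.Agent.H831.Unf.exists_seven
  have hconj : ∀ a ∈ T, ∀ b ∈ T, IsConj a b := fun a ha b hb => isConj_iff.2 (tf.trans a ha b hb)
  -- lifts
  have hlift : ∀ i, ∃ y : L, π y = x i := fun i => hπ.surj (x i)
  choose y hy using hlift
  have hzk : y 0 * y 0 ∈ π.ker := by rw [MonoidHom.mem_ker, map_mul, hy, tf.sq _ (hxT 0)]
  obtain ⟨z, hz⟩ : ∃ z, z = y 0 * y 0 := ⟨_, rfl⟩
  rw [← hz] at hzk
  have hzz := h2 z hzk
  have hzc : ∀ g, g * z = z * g := fun g => mem_center_iff.1 (hπ.cen hzk) g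
  have hsq : ∀ t ∈ T, ∀ r : L, π r = t → r * r = z := by
    intro t ht r hr
    rw [hz]
    exact (sq_lift_eq hπ.surj hπ.cen h2 (tf.sq _ (hxT 0)) (hconj _ (hxT 0) _ ht) (hy 0) hr).symm
  -- the commutator
  have hwk : y 0 * y 1 * (y 1 * y 0)⁻¹ ∈ π.ker := by
    rw [MonoidHom.mem_ker, map_mul, map_inv, map_mul, map_mul, hy, hy, hxc, mul_inv_cancel]
  obtain ⟨w, hw⟩ : ∃ w, w = y 0 * y 1 * (y 1 * y 0)⁻¹ := ⟨_, rfl⟩
  rw [← hw] at hwk
  have hww := h2 w hwk
  have hwc : ∀ g, g * w = w * g := fun g => mem_center_iff.1 (hπ.cen hwk) g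
  have hw01 : y 0 * y 1 = w * (y 1 * y 0) := by rw [hw]; group
  have hcomm : ∀ a ∈ T, ∀ b ∈ T, a ≠ b → a * b = b * a → ∀ r s : L, π r = a → π s = b → r * s = w * (s * r) := by
    intro a ha b hb hab cab r s hr hs
    obtain ⟨k, hk1, hk2⟩ := trans_commuting _ (hxT 0) _ (hxT 1) a ha b hb (hxn 0 1 (by decide)) hab (hxc 0 1) cab
    obtain ⟨k, rfl⟩ := hπ.surj k
    have e1 : ∃ c, (∀ g, g * c = c * g) ∧ r = c * (k * y 0 * k⁻¹) := by
      have h3 : r * (k * y 0 * k⁻¹)⁻¹ ∈ π.ker := by
        rw [MonoidHom.mem_ker, map_mul, map_inv, map_mul, map_mul, map_inv, hy, hr, hk1, mul_inv_cancel]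
      exact ⟨_, fun g => mem_center_iff.1 (hπ.cen h3) g, by group⟩
    have e2 : ∃ c, (∀ g, g * c = c * g) ∧ s = c * (k * y 1 * k⁻¹) := by
      have h3 : s * (k * y 1 * k⁻¹)⁻¹ ∈ π.ker := by
        rw [MonoidHom.mem_ker, map_mul, map_inv, map_mul, map_mul, map_inv, hy, hs, hk2, mul_inv_cancel]
      exact ⟨_, fun g => mem_center_iff.1 (hπ.cen h3) g, by group⟩
    obtain ⟨c, hc, rfl⟩ := e1
    obtain ⟨d, hd, rfl⟩ := e2
    calc c * (k * y 0 * k⁻¹) * (d * (k * y 1 * k⁻¹)) = c * ((k * y 0 * k⁻¹) * d) * (k * y 1 * k⁻¹) := by group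
      _ = c * d * k * (y 0 * y 1) * k⁻¹ := by rw [hd]; group
      _ = (c * d * k * w) * (y 1 * y 0) * k⁻¹ := by rw [hw01]; group
      _ = w * (c * (d * (k * y 1 * k⁻¹))) * (k * y 0 * k⁻¹) := by rw [hwc]; group
      _ = w * ((d * (k * y 1 * k⁻¹)) * c) * (k * y 0 * k⁻¹) := by rw [← hc]
      _ = _ := by group
  -- the relation
  have hzw : z * w = 1 := by
    have key := sq_list hwc hzc [y 0, y 1, y 2, y 3, y 4, y 5, y 6] ?_ ?_
    · have h3 : [y 0, y 1, y 2, y 3, y 4, y 5, y 6].prod ∈ π.ker := by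
        rw [MonoidHom.mem_ker, ← hxp]
        simp only [List.prod_cons, List.prod_nil, mul_one, map_mul, hy, mul_assoc]
      rw [h2 _ h3] at key
      simp only [List.length_cons, List.length_nil] at key
      have e7 : z ^ (0 + 1 + 1 + 1 + 1 + 1 + 1 + 1) = z := by
        rw [show 0 + 1 + 1 + 1 + 1 + 1 + 1 + 1 = 2 * 3 + 1 from rfl, pow_succ, pow_mul, pow_two, hzz, one_pow, one_mul]
      have e21 : w ^ ((0 + 1 + 1 + 1 + 1 + 1 + 1 + 1).choose 2) = w := by
        have h21 : (0 + 1 + 1 + 1 + 1 + 1 + 1 + 1).choose 2 = 2 * 10 + 1 := by decide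
        rw [h21, pow_succ, pow_mul, pow_two, hww, one_pow, one_mul]
      rw [e7, e21] at key
      exact key.symm
    · intro r hr
      simp only [List.mem_cons, List.not_mem_nil, or_false] at hr
      rcases hr with rfl | rfl | rfl | rfl | rfl | rfl | rfl <;> exact hsq _ (hxT _) _ (hy _)
    · have hij : ∀ i j : Fin 7, i ≠ j → y j * y i = w * (y i * y j) := fun i j hij =>
        hcomm _ (hxT j) _ (hxT i) (hxn _ _ hij.symm) (hxc _ _) _ _ (hy _) (hy _)
      simp only [List.pairwise_cons, List.mem_cons, List.not_mem_nil, or_false, forall_eq_or_imp, forall_eq,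
        List.Pairwise.nil, and_true, false_implies, implies_true]
      refine ⟨⟨?_, ?_, ?_, ?_, ?_, ?_⟩, ⟨?_, ?_, ?_, ?_, ?_⟩, ⟨?_, ?_, ?_, ?_⟩, ⟨?_, ?_, ?_⟩, ⟨?_, ?_⟩, ?_⟩ <;>
        exact hij _ _ (by decide)
  have hwz : w = z := by
    calc w = (z * z) * w := by rw [hzz, one_mul]
      _ = z * (z * w) := by group
      _ = z := by rw [hzw, mul_one]
  subst hwz
  -- the involutions
  have hpair : ∀ a ∈ T, ∀ b ∈ T, a ≠ b → a * b = b * a → ∀ r : L, π r = a * b → r * r = w := by
    intro a ha b hb hab cab r hr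
    obtain ⟨p, hp⟩ := hπ.surj a
    obtain ⟨q, hq⟩ := hπ.surj b
    have h3 := hcomm a ha b hb hab cab p q hp hq
    have h4 : r * r = (p * q) * (p * q) := by
      have hab2 : a * b * (a * b) = 1 := by
        rw [show a * b * (a * b) = a * (b * a) * b by group, ← cab, show a * (a * b) * b = a * a * (b * b) by group,
          tf.sq a ha, tf.sq b hb, mul_one]
      exact sq_lift_eq hπ.surj hπ.cen h2 hab2 (IsConj.refl _) hr (by rw [map_mul, hp, hq])
    rw [h4]
    have h5 : q * p = w * (p * q) := hcomm b hb a ha hab.symm cab.symm q p hq hp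
    calc p * q * (p * q) = p * (q * p) * q := by group
      _ = (p * w) * (p * (q * q)) := by rw [h5]; group
      _ = w * (p * p) * (q * q) := by rw [hwc]; group
      _ = w * w * w := by rw [hsq a ha p hp, hsq b hb q hq]
      _ = w := by rw [hww, one_mul]
  have hE : EM Spor.Fi22 := by
    obtain ⟨a, b, c, -, ht, -, -, -⟩ := tf.four
    refine em_of_commuting {a, b, c} ?_ ?_ ?_
    · rintro r (rfl | rfl | rfl)
      · exact tf.sq _ ht.mx
      · exact tf.sq _ ht.my
      · exact tf.sq _ ht.mw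
    · rintro r (rfl | rfl | rfl) s (rfl | rfl | rfl)
      · rfl
      · exact ht.cxy
      · exact ht.cxw
      · exact ht.cxy.symm
      · rfl
      · exact ht.cyw
      · exact ht.cxw.symm
      · exact ht.cyw.symm
      · rfl
    · intro t ht'
      have htt := sq_of_orderOf ht'
      rcases tf.inv t htt (Cfsg.Agent.R08.AutT.hfix t htt) with h | h | ⟨p, hp, q, hq, hpq, cpq, rfl⟩ | ⟨p, q, r, hpqr, rfl⟩
      · exact absurd h (ne_one_of_orderOf ht')
      · obtain ⟨g, hg⟩ := tf.trans t h a ht.mx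
        exact ⟨g, by rw [hg]; exact subset_closure (Or.inl rfl)⟩
      · obtain ⟨k, hk1, hk2⟩ := trans_commuting p hp q hq a ht.mx b ht.my hpq ht.xy cpq ht.cxy
        refine ⟨k, ?_⟩
        rw [show k * (p * q) * k⁻¹ = (k * p * k⁻¹) * (k * q * k⁻¹) by group, hk1, hk2]
        exact mul_mem (subset_closure (Or.inl rfl)) (subset_closure (Or.inr (Or.inl rfl)))
      · obtain ⟨k, hk1, hk2, hk3⟩ := tf.tri _ _ _ _ _ _ hpqr ht
        refine ⟨k, ?_⟩
        rw [show k * (p * q * r) * k⁻¹ = (k * p * k⁻¹) * (k * q * k⁻¹) * (k * r * k⁻¹) by group, hk1, hk2, hk3]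
        exact mul_mem (mul_mem (subset_closure (Or.inl rfl)) (subset_closure (Or.inr (Or.inl rfl))))
          (subset_closure (Or.inr (Or.inr rfl)))
  by_cases hw1 : w = 1
  · -- everything lifts
    refine em_of_all_lift hπ.surj hπ.cen h2 (fun t ht => ?_) hE
    have htt := sq_of_orderOf ht
    rcases tf.inv t htt (Cfsg.Agent.R08.AutT.hfix t htt) with h | h | ⟨p, hp, q, hq, hpq, cpq, rfl⟩ | ⟨p, q, r, hpqr, rfl⟩
    · exact absurd h (ne_one_of_orderOf ht)
    · obtain ⟨s, hs⟩ := hπ.surj t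
      exact ⟨s, hs, by rw [hsq t h s hs, hw1]⟩
    · obtain ⟨s, hs⟩ := hπ.surj (p * q)
      exact ⟨s, hs, by rw [hpair p hp q hq hpq cpq s hs, hw1]⟩
    · obtain ⟨p', hp'⟩ := hπ.surj p
      obtain ⟨q', hq'⟩ := hπ.surj q
      obtain ⟨r', hr'⟩ := hπ.surj r
      refine ⟨p' * q' * r', by rw [map_mul, map_mul, hp', hq', hr'], ?_⟩
      have c1 := hcomm p hpqr.mx q hpqr.my hpqr.xy hpqr.cxy p' q' hp' hq'
      have c2 := hcomm p hpqr.mx r hpqr.mw hpqr.xw hpqr.cxw p' r' hp' hr'
      have c3 := hcomm q hpqr.my r hpqr.mw hpqr.yw hpqr.cyw q' r' hq' hr'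
      rw [hw1, one_mul] at c1 c2 c3
      have s1 := hsq p hpqr.mx p' hp'
      have s2 := hsq q hpqr.my q' hq'
      have s3 := hsq r hpqr.mw r' hr'
      rw [hw1] at s1 s2 s3
      calc p' * q' * r' * (p' * q' * r') = p' * q' * (r' * p') * q' * r' := by group
        _ = p' * (q' * p') * (r' * q') * r' := by rw [← c2]; group
        _ = (p' * p') * (q' * q') * (r' * r') := by rw [← c1, ← c3]; group
        _ = 1 := by rw [s1, s2, s3, one_mul, one_mul]
  · -- only the triples lift
    have key : ∀ t : Spor.Fi22, orderOf t = 2 → Lft π t → ∃ p q r, Tri T p q r ∧ t = p * q * r := by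
      intro t ht hl
      have htt := sq_of_orderOf ht
      rcases tf.inv t htt (Cfsg.Agent.R08.AutT.hfix t htt) with h | h | ⟨p, hp, q, hq, hpq, cpq, rfl⟩ | ⟨p, q, r, hpqr, h⟩
      · exact absurd h (ne_one_of_orderOf ht)
      · obtain ⟨s, hs, hss⟩ := hl
        exact absurd ((hsq t h s hs).symm.trans hss) hw1
      · obtain ⟨s, hs, hss⟩ := hl
        exact absurd ((hpair p hp q hq hpq cpq s hs).symm.trans hss) hw1
      · exact ⟨p, q, r, hpqr, h⟩
    refine em_of_one hπ.surj hπ.cen fun t t' ht ht' hl hl' => ?_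
    obtain ⟨p, q, r, h3, rfl⟩ := key t ht hl
    obtain ⟨p', q', r', h4, rfl⟩ := key t' ht' hl'
    obtain ⟨g, h5, h6, h7⟩ := tf.tri _ _ _ _ _ _ h3 h4
    refine isConj_iff.2 ⟨g, ?_⟩
    rw [← h5, ← h6, ← h7]
    group

/-- **The row `Fi₂₂`.** -/
theorem crow_fi22 {L : Type u} [Group L] (h : Cfsg.Spor.IsoFi22 L) : CRow L := by
  obtain ⟨e⟩ := h
  exact crow_fi22'.congr e

end Cfsg.Agent.H243.EMFi
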