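import Mathlib
import Cfsg.Agent.H277.EM.Univ
import Cfsg.Agent.KFacts.FiTTh.Has
import Cfsg.Agent.S2054

/-!
# S2243: the row `Fi₂₃` (helper243)

The three classes of involutions are those of `z₀`, `z₀ a`, `z₀ a c` for commuting transpositions `z₀`, `a`, `c`;
there is no double cover.
-/

set_option autoImplicit false
set_option maxRecDepth 100000

namespace Cfsg.Agent.H243.EMFi

open Subgroup Cfsg Cfsg.Agent.H51.Mult Cfsg.Agent.H277.MI
open Cfsg.Agent.Fischer.Fi23Z Cfsg.Agent.Fischer.Fi23Hom Cfsg.Agent.Fischer.Fi23Rel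
open Cfsg.Agent.Fischer Cfsg.Agent.Fischer.Fi23Class Cfsg.Agent.Fischer.Fi23Simple Cfsg.Agent.KFacts.FiTTh.Cent
open Cfsg.Spor Cfsg.Spor.Fi23
open Cfsg.Agent.Fischer.Fi23Final (gen_sq)

universe u

/-- three commuting involutions -/
theorem em_of_three {G : Type u} [Group G] {a b c : G} (ha : a * a = 1) (hb : b * b = 1) (hc : c * c = 1)
    (hab : a * b = b * a) (hac : a * c = c * a) (hbc : b * c = c * b)
    (h : ∀ t : G, orderOf t = 2 → IsConj t a ∨ IsConj t (a * b) ∨ IsConj t (a * b * c)) : EM G := by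
  refine em_of_commuting {a, b, c} ?_ ?_ ?_
  · rintro r (rfl | rfl | rfl)
    · exact ha
    · exact hb
    · exact hc
  · rintro r (rfl | rfl | rfl) s (rfl | rfl | rfl)
    · rfl
    · exact hab
    · exact hac
    · exact hab.symm
    · rfl
    · exact hbc
    · exact hac.symm
    · exact hbc.symm
    · rfl
  · intro t ht
    have h0 : a ∈ closure ({a, b, c} : Set G) := subset_closure (Or.inl rfl)
    have h1 : b ∈ closure ({a, b, c} : Set G) := subset_closure (Or.inr (Or.inl rfl))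
    have h2 : c ∈ closure ({a, b, c} : Set G) := subset_closure (Or.inr (Or.inr rfl))
    rcases h t ht with h | h | h
    · obtain ⟨g, hg⟩ := isConj_iff.1 h
      exact ⟨g, by rw [hg]; exact h0⟩
    · obtain ⟨g, hg⟩ := isConj_iff.1 h
      exact ⟨g, by rw [hg]; exact mul_mem h0 h1⟩
    · obtain ⟨g, hg⟩ := isConj_iff.1 h
      exact ⟨g, by rw [hg]; exact mul_mem (mul_mem h0 h1) h2⟩

theorem exists_three : ∃ a b c : Spor.Fi23, a * a = 1 ∧ b * b = 1 ∧ c * c = 1 ∧ a * b = b * a ∧ a * c = c * a ∧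
    b * c = c * b ∧ ∀ t : Spor.Fi23, t * t = 1 → t ≠ 1 → IsConj t a ∨ IsConj t (a * b) ∨ IsConj t (a * b * c) :=
  ⟨z0, gen .a, gen .c, zz, gen_sq .a, gen_sq .c, za.symm, zc.symm, ac, Cfsg.Agent.KFacts.FiTTh.Has.inv⟩

theorem em_fi23 : EM Spor.Fi23 := by
  obtain ⟨a, b, c, ha, hb, hc, hab, hac, hbc, h⟩ := exists_three
  exact em_of_three ha hb hc hab hac hbc fun t ht => h t (sq_of_orderOf ht) (ne_one_of_orderOf ht)

/-- **The row `Fi₂₃`.** -/
theorem crow_fi23 {L : Type u} [Group L] (h : Cfsg.Spor.IsoFi23 L) : CRow L := by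
  obtain ⟨e⟩ := h
  exact (CRow.of_noCov (noCov_of_cyclic Cfsg.Agent.S2054.result (by decide)) em_fi23).congr e

end Cfsg.Agent.H243.EMFi
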