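import Mathlib
import Cfsg.Agent.H243.Setup

/-!
# Orders of `L` and `C_L(z)` (helper243)
-/

set_option autoImplicit false

namespace Cfsg.Agent.H243

open Subgroup Cfsg
open scoped commutatorElement

universe u

variable {G : Type u} [Group G] {Z : Subgroup G} {Q : Subgroup ↥(centralizer (Z : Set G))} [Q.Normal] {L : Subgroup G}

theorem ker_θ [(pCore 2 (↥(centralizer (Z : Set G)) ⧸ Q)).Normal] :
    (θ Q).ker = (pCore 2 (↥(centralizer (Z : Set G)) ⧸ Q)).comap (QuotientGroup.mk' Q) := by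
  rw [θ, ← MonoidHom.comap_ker, QuotientGroup.ker_mk']

theorem card_comap_mk {M : Type u} [Group M] [Finite M] (Q : Subgroup M) [Q.Normal] (R : Subgroup (M ⧸ Q)) :
    Nat.card ↥(R.comap (QuotientGroup.mk' Q)) = Nat.card ↥Q * Nat.card ↥R := by
  have h1 := Subgroup.card_mul_index (R.comap (QuotientGroup.mk' Q))
  rw [Subgroup.index_comap_of_surjective _ (QuotientGroup.mk'_surjective Q)] at h1
  have h2 := Subgroup.card_mul_index R
  have h3 := Subgroup.card_mul_index Q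
  have h4 : Nat.card (M ⧸ Q) = Q.index := rfl
  have h5 : R.index ≠ 0 := Subgroup.index_ne_zero_of_finite
  have h6 : Nat.card ↥(R.comap (QuotientGroup.mk' Q)) * R.index = (Nat.card ↥Q * Nat.card ↥R) * R.index := by
    rw [h1, ← h3, ← h4, ← h2, mul_assoc]
  exact Nat.eq_of_mul_eq_mul_right (Nat.pos_of_ne_zero h5) h6

theorem card_ker_θ [Finite G] [(pCore 2 (↥(centralizer (Z : Set G)) ⧸ Q)).Normal] (h : Hyp Q) :
    Nat.card ↥(θ Q).ker = 3 ^ 9 * 2 ^ 7 := by
  rw [ker_θ, card_comap_mk, h.card, h.cardR]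

/-- `|M| = 3^9 2^7 |Top|` -/
theorem card_M [Finite G] [(pCore 2 (↥(centralizer (Z : Set G)) ⧸ Q)).Normal] (h : Hyp Q) :
    Nat.card ↥(centralizer (Z : Set G)) = 3 ^ 9 * 2 ^ 7 * Nat.card (TopQ Q) := by
  have h1 := Subgroup.card_mul_index (θ Q).ker
  rw [Subgroup.index_ker, MonoidHom.range_eq_top.2 θ_surj, Subgroup.card_top, card_ker_θ h] at h1
  exact h1.symm

/-- `|N| = 3^9 2^k |θ N|` -/
theorem card_N [Finite G] [(pCore 2 (↥(centralizer (Z : Set G)) ⧸ Q)).Normal] (h : Hyp Q)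
    {N : Subgroup ↥(centralizer (Z : Set G))} (hQ : Q ≤ N) :
    ∃ k ≤ 7, Nat.card ↥N = 3 ^ 9 * 2 ^ k * Nat.card ↥(N.map (θ Q)) := by
  -- `N ∩ ker θ`
  have hQk : Q ≤ (θ Q).ker := by
    rw [ker_θ]
    intro x hx
    rw [Subgroup.mem_comap]
    have : QuotientGroup.mk' Q x = 1 := (QuotientGroup.eq_one_iff x).2 hx
    rw [this]
    exact one_mem _
  have h1 : Nat.card ↥N = Nat.card ↥(N.map (θ Q)) * Nat.card ↥(N ⊓ (θ Q).ker) := by
    have e1 := Subgroup.card_mul_index ((θ Q).comp N.subtype).ker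
    rw [Subgroup.index_ker, MonoidHom.range_comp, Subgroup.range_subtype] at e1
    have e2 : Nat.card ↥((θ Q).comp N.subtype).ker = Nat.card ↥(N ⊓ (θ Q).ker) := by
      refine Nat.card_congr ?_
      exact
        { toFun := fun x => ⟨x.1.1, x.1.2, x.2⟩
          invFun := fun x => ⟨⟨x.1, x.2.1⟩, x.2.2⟩
          left_inv := fun _ => rfl
          right_inv := fun _ => rfl }
    rw [← e1, e2, mul_comm]
  have h2 : Nat.card ↥(N ⊓ (θ Q).ker) ∣ 3 ^ 9 * 2 ^ 7 := by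
    rw [← card_ker_θ h]
    exact Subgroup.card_dvd_of_le inf_le_right
  have h3 : 3 ^ 9 ∣ Nat.card ↥(N ⊓ (θ Q).ker) := by
    rw [← h.card]
    exact Subgroup.card_dvd_of_le (le_inf hQ hQk)
  obtain ⟨c, hc⟩ := h3
  rw [hc] at h2
  have h4 : c ∣ 2 ^ 7 := Nat.dvd_of_mul_dvd_mul_left (by norm_num) h2
  obtain ⟨k, hk, rfl⟩ := (Nat.dvd_prime_pow Nat.prime_two).1 h4
  exact ⟨k, hk, by rw [h1, hc, mul_comm]⟩

/-- the 3-part of `L` -/
theorem Sit.dvd_iff [Finite G] (s : Sit Z Q L) (hl : H261.Loc 3 Z (Q.map (centralizer (Z : Set G)).subtype))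
    (hQ : Q ≤ NL Z L) (k : ℕ) : 3 ^ k ∣ Nat.card ↥L ↔ 3 ^ k ∣ Nat.card ↥(NL Z L) := by
  have : Fact (Nat.Prime 3) := ⟨Nat.prime_three⟩
  constructor
  · intro hk
    -- a Sylow subgroup of `L` containing `Q`
    have hQp : IsPGroup 3 ↥((Q.map (centralizer (Z : Set G)).subtype).subgroupOf L) := hl.pQ.comap_subtype
    obtain ⟨P, hP⟩ := hQp.exists_le_sylow
    have h1 := Sylow.pow_dvd_card_of_pow_dvd_card P hk
    refine h1.trans ?_
    have hT : IsPGroup 3 ↥((P : Subgroup ↥L).map L.subtype) := P.isPGroup'.map _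
    have hQT : Q.map (centralizer (Z : Set G)).subtype ≤ (P : Subgroup ↥L).map L.subtype := by
      rintro _ ⟨x, hx, rfl⟩
      exact ⟨⟨x, hQ hx⟩, hP ⟨x, hx, rfl⟩, rfl⟩
    have hTC := hl.le_cent Nat.prime_three hT hQT
    have h2 : Nat.card ↥((P : Subgroup ↥L).map L.subtype) = Nat.card ↥(P : Subgroup ↥L) :=
      (Nat.card_congr ((P : Subgroup ↥L).equivMapOfInjective _ L.subtype_injective).symm.toEquiv)
    rw [← h2]
    have h3 : ((P : Subgroup ↥L).map L.subtype).subgroupOf (centralizer (Z : Set G)) ≤ NL Z L := by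
      rintro x ⟨y, -, hy⟩
      rw [mem_NL]
      have : (y : G) = (x : G) := hy
      rw [← this]
      exact y.2
    have h4 := Subgroup.card_dvd_of_le h3
    rwa [Nat.card_congr (Subgroup.subgroupOfEquivOfLe hTC).toEquiv] at h4
  · intro hk
    refine hk.trans ?_
    have h1 : (NL Z L).map (centralizer (Z : Set G)).subtype ≤ L := by
      rintro _ ⟨x, hx, rfl⟩
      exact hx
    have h2 := Subgroup.card_dvd_of_le h1
    rwa [Nat.card_congr ((NL Z L).equivMapOfInjective _ (Subgroup.subtype_injective _)).symm.toEquiv] at h2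

/-- a generator of `Z` as an element of `L` -/
theorem Sit.exists_z (s : Sit Z Q L) : ∃ z : ↥L, orderOf z = 3 ∧ (z : G) ∈ Z ∧
    (∀ g : G, g ∈ centralizer (Z : Set G) ↔ g * z = z * g) := by
  have hZ := s.cardZ
  have : Fact (Nat.Prime 3) := ⟨Nat.prime_three⟩
  have : IsCyclic ↥Z := isCyclic_of_prime_card hZ
  obtain ⟨z, hz⟩ := IsCyclic.exists_generator (α := ↥Z)
  have ho : orderOf z = 3 := by rw [← hZ]; exact orderOf_eq_card_of_forall_mem_zpowers hz
  refine ⟨⟨z, s.ZL z.2⟩, ?_, z.2, ?_⟩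
  · rw [← Subgroup.orderOf_coe] at ho ⊢
    exact ho
  · intro g
    rw [mem_centralizer_iff]
    constructor
    · intro h
      exact (h z z.2).symm
    · intro h w hw
      obtain ⟨n, hn⟩ := mem_zpowers_iff.1 (hz ⟨w, hw⟩)
      have h1 : (z : G) ^ n = w := congrArg Subtype.val hn
      rw [← h1]
      exact ((show Commute g (z : G) from h).symm.zpow_left n)

/-- the centralizer in `L` -/
theorem Sit.card_centralizer (s : Sit Z Q L) {z : ↥L} (hz : ∀ g : G, g ∈ centralizer (Z : Set G) ↔ g * z = z * g) :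
    Nat.card ↥(centralizer ({z} : Set ↥L)) = Nat.card ↥(NL Z L) := by
  refine Nat.card_congr ?_
  exact
    { toFun := fun x => ⟨⟨x.1.1, (hz _).2 (congrArg Subtype.val (mem_centralizer_singleton_iff.1 x.2))⟩, x.1.2⟩
      invFun := fun x => ⟨⟨x.1.1, x.2⟩, mem_centralizer_singleton_iff.2 (Subtype.ext ((hz _).1 x.1.2))⟩
      left_inv := fun _ => rfl
      right_inv := fun _ => rfl }

/-- abelian 3-subgroups of `G` (and `L`) -/
theorem Sit.card_abelian [Finite G] (s : Sit Z Q L) (hl : H261.Loc 3 Z (Q.map (centralizer (Z : Set G)).subtype))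
    (hY : ∀ E : Subgroup (↥(centralizer (Z : Set G)) ⧸ Q), IsPGroup 3 ↥E → (∀ a ∈ E, ∀ b ∈ E, a * b = b * a) →
      Nat.card ↥E ≤ 27) {A : Subgroup G} (hA : IsPGroup 3 ↥A) (hab : ∀ a ∈ A, ∀ b ∈ A, a * b = b * a) :
    Nat.card ↥A ≤ 3 ^ 7 := by
  have : Fact (Nat.Prime 3) := ⟨Nat.prime_three⟩
  obtain ⟨P, hP⟩ := hA.exists_le_sylow
  obtain ⟨T, hT⟩ := hl.pQ.exists_le_sylow
  obtain ⟨g, hg⟩ := MulAction.exists_smul_eq G P T
  have hTC := hl.le_cent Nat.prime_three T.isPGroup' hT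
  -- conjugate `A` into `M`
  have hle : A.map (MulAut.conj g).toMonoidHom ≤ centralizer (Z : Set G) := by
    rintro _ ⟨a, ha, rfl⟩
    apply hTC
    rw [← hg]
    exact Subgroup.smul_mem_pointwise_smul a (MulAut.conj g) (P : Subgroup G) (hP ha)
  have h1 := s.hyp.card_abelian hY (A := (A.map (MulAut.conj g).toMonoidHom).subgroupOf _)
    ((hA.map _).comap_subtype) (by
      rintro ⟨_, hx⟩ ⟨a, ha, rfl⟩ ⟨_, hy⟩ ⟨b, hb, rfl⟩
      apply Subtype.ext
      change (MulAut.conj g).toMonoidHom a * (MulAut.conj g).toMonoidHom b =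
        (MulAut.conj g).toMonoidHom b * (MulAut.conj g).toMonoidHom a
      rw [← map_mul, ← map_mul, hab a ha b hb])
  rw [Nat.card_congr (Subgroup.subgroupOfEquivOfLe hle).toEquiv,
    Nat.card_congr (A.equivMapOfInjective _ (MulAut.conj g).injective).symm.toEquiv] at h1
  exact h1

/-- `Ab27` of the top section gives `Ab27` of `M / Q`. -/
theorem Hyp.ab27 [Finite G] [hn : (pCore 2 (↥(centralizer (Z : Set G)) ⧸ Q)).Normal] (h : Hyp Q) (ht : Ab27 (TopQ Q)) :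
    ∀ E : Subgroup (↥(centralizer (Z : Set G)) ⧸ Q), IsPGroup 3 ↥E → (∀ a ∈ E, ∀ b ∈ E, a * b = b * a) →
      Nat.card ↥E ≤ 27 := by
  intro E hE hab
  have h1 := ht (E.map (QuotientGroup.mk' _)) (hE.map _) (by
    rintro _ ⟨a, ha, rfl⟩ _ ⟨b, hb, rfl⟩
    rw [← map_mul, ← map_mul, hab a ha b hb])
  have hinj : Function.Injective (fun x : ↥E => (⟨QuotientGroup.mk' (pCore 2 (↥(centralizer (Z : Set G)) ⧸ Q)) x, x, x.2, rfl⟩ :
      ↥(E.map (QuotientGroup.mk' (pCore 2 (↥(centralizer (Z : Set G)) ⧸ Q)))))) := by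
    intro x y hxy
    have h2 : QuotientGroup.mk' (pCore 2 (↥(centralizer (Z : Set G)) ⧸ Q)) (x : _ ⧸ Q) = QuotientGroup.mk' _ (y : _ ⧸ Q) :=
      congrArg Subtype.val hxy
    have h3 : (x : _ ⧸ Q)⁻¹ * y ∈ pCore 2 (↥(centralizer (Z : Set G)) ⧸ Q) := QuotientGroup.eq.1 h2
    -- a 2-element and a 3-element
    have h4 : ((x : _ ⧸ Q)⁻¹ * y) ^ 2 ^ 7 = 1 := by
      have := pow_card_eq_one' (G := ↥(pCore 2 (↥(centralizer (Z : Set G)) ⧸ Q))) (x := ⟨_, h3⟩)
      rw [h.cardR] at this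
      exact congrArg Subtype.val this
    obtain ⟨k, hk⟩ := hE (x⁻¹ * y)
    have h5 : ((x : _ ⧸ Q)⁻¹ * y) ^ 3 ^ k = 1 := congrArg Subtype.val hk
    have h6 := pow_gcd_eq_one.2 ⟨h4, h5⟩
    have h7 : Nat.gcd (2 ^ 7) (3 ^ k) = 1 := Nat.Coprime.pow 7 k (by norm_num)
    rw [h7, pow_one] at h6
    exact Subtype.ext (inv_mul_eq_one.1 h6)
  exact (Nat.card_le_card_of_injective _ hinj).trans h1

end Cfsg.Agent.H243
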