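import Mathlib

/-!
# Two quadratic elements differing by an element of order at most 4 (helper243)

Ring identities in characteristic 3.
-/

set_option autoImplicit false

namespace Cfsg.Agent.H243.QuadAlg

variable {A : Type*} [Ring A] {e y y' yi : A}

theorem alg1 (he : e * e = -e - 1) (hy : e * y * (e * y) = -(e * y) - 1) (hc : e * y = y' * e) (hi : yi * y' = 1) :
    e - y' * e = y - yi := by
  have h1 : e * y * (e * y) = -(y' * (y' * e)) - y' * y := by
    calc e * y * (e * y) = y' * e * (e * y) := by rw [hc]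
      _ = y' * (e * e) * y := by noncomm_ring
      _ = y' * (-e - 1) * y := by rw [he]
      _ = -(y' * (e * y)) - y' * y := by noncomm_ring
      _ = -(y' * (y' * e)) - y' * y := by rw [hc]
  rw [h1, hc] at hy
  have h2 : yi * (-(y' * (y' * e)) - y' * y) = yi * (-(y' * e) - 1) := by rw [hy]
  have h3 : yi * (-(y' * (y' * e)) - y' * y) = -(y' * e) - y := by
    calc yi * (-(y' * (y' * e)) - y' * y) = -((yi * y') * (y' * e)) - (yi * y') * y := by noncomm_ring
      _ = _ := by rw [hi, one_mul, one_mul]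
  have h4 : yi * (-(y' * e) - 1) = -e - yi := by
    calc yi * (-(y' * e) - 1) = -((yi * y') * e) - yi := by noncomm_ring
      _ = _ := by rw [hi, one_mul]
  rw [h3, h4] at h2
  have h5 : e - y' * e = e + (-(y' * e) - y) + y := by abel
  rw [h5, h2]
  abel

/-- `y² = -1`: then `e` is a polynomial in `y` and `y' = e y e⁻¹`. -/
theorem alg2 (h3 : (3 : A) = 0) (he : e * e = -e - 1) (hy : e * y * (e * y) = -(e * y) - 1) (hc : e * y = y' * e)
    (hs : y' * y' = -1) : e = 1 - y - y' - y' * y := by
  have h1 := alg1 (yi := -y') he hy hc (by rw [neg_mul, hs, neg_neg])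
  have h2 : (1 + y') * (e - y' * e) = (1 + y') * (y - -y') := by rw [h1]
  have h4 : (1 + y') * (e - y' * e) = e - (y' * y') * e := by noncomm_ring
  have h5 : (1 + y') * (y - -y') = y + y' + y' * y + y' * y' := by noncomm_ring
  rw [h4, h5, hs] at h2
  have h6 : e - -1 * e = 3 * e - e := by noncomm_ring
  rw [h6, h3, zero_mul, zero_sub] at h2
  rw [← neg_neg e, h2]
  abel

/-- `y² = 1`: then `(y' + 1) (y - 1) = 0`. -/
theorem alg3 (he : e * e = -e - 1) (hy : e * y * (e * y) = -(e * y) - 1) (hc : e * y = y' * e)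
    (hs : y' * y' = 1) : y' * y = y' - y + 1 := by
  have h1 := alg1 (yi := y') he hy hc hs
  have h2 : (1 + y') * (e - y' * e) = (1 + y') * (y - y') := by rw [h1]
  have h4 : (1 + y') * (e - y' * e) = e - (y' * y') * e := by noncomm_ring
  have h5 : (1 + y') * (y - y') = y - y' + y' * y - y' * y' := by noncomm_ring
  rw [h4, h5, hs, one_mul, sub_self] at h2
  have h6 : y' * y = (y - y' + y' * y - 1) + (y' - y + 1) := by abel
  rw [h6, ← h2, zero_add]

/-- three involutions `y, y', y''` with the cyclic relations: `y y' + y' y = 2`. -/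
theorem alg4 {y'' : A} (h3 : (3 : A) = 0) (h1 : y' * y = y' - y + 1) (h2 : y'' * y' = y'' - y' + 1)
    (h4 : y * y'' = y - y'' + 1) : y * y' + y' * y = 2 := by
  -- `(y + 1)(y' - 1) = 0`
  have e1 : (y'' - 1) * (y' - 1) = (y' - 1) := by
    have : (y'' - 1) * (y' - 1) = y'' * y' - y'' - y' + 1 := by noncomm_ring
    rw [this, h2]
    have : y'' - y' + 1 - y'' - y' + 1 = (y' - 1) - (3 : A) * (y' - 1) := by noncomm_ring
    rw [this, h3, zero_mul, sub_zero]
  have e2 : (y + 1) * (y'' - 1) = 0 := by
    have : (y + 1) * (y'' - 1) = y * y'' - y + y'' - 1 := by noncomm_ring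
    rw [this, h4]
    abel
  have e3 : (y + 1) * (y' - 1) = 0 := by
    rw [← e1, ← mul_assoc, e2, zero_mul]
  have e4 : y * y' = y - y' + 1 := by
    have : y * y' = (y + 1) * (y' - 1) + (y - y' + 1) := by noncomm_ring
    rw [this, e3, zero_add]
  rw [e4, h1]
  have : y - y' + 1 + (y' - y + 1) = 2 := by
    have : (2 : A) = 1 + 1 := one_add_one_eq_two.symm
    rw [this]
    abel
  exact this

end Cfsg.Agent.H243.QuadAlg
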