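import Cfsg.Agent.H243.SRCo
import Cfsg.Agent.KFacts.Baby.RowB
import Cfsg.Agent.KFacts.Baby.Inst
import Cfsg.Agent.BabyM.Instance

/-!
# An element of the Baby Monster which is not real (helper243)

`nrel_b` : `z y`, `z` the central involution of `2^{1+22}.Co2`, `y` of order 23.
-/

set_option autoImplicit false
set_option maxRecDepth 100000

namespace Cfsg.Agent.H243.SRB

open Subgroup Cfsg Cfsg.Agent.H721.SR Cfsg.Agent.BabyM Cfsg.Agent.BabyM.Model Cfsg.Agent.BabyU.ClosModel

local notation "K0" => Cfsg.Agent.BabyM.GroupInst.K₀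
local notation "l0" => Cfsg.Agent.BabyM.Co2GenStd.l₀

theorem not_real_k0 {x : K0} (hx : orderOf x = 23) : ¬ IsConj x x⁻¹ := by
  have hc : Nat.card K0 = 42305421312000 := Cfsg.Agent.BabyM.GroupInst.card
  have hf : Finite K0 := Nat.finite_of_card_ne_zero (by rw [hc]; norm_num)
  refine SRCo.not_real_of_inc (MulAction.stabilizer Cfsg.Co0 l0).subtype (Subgroup.subtype_injective _) ?_
    (by rw [hc]; norm_num) (by rw [hc]) hx
  intro g hg
  have h1 : (g : Cfsg.Co0) • l0 = l0 := g.2
  have h2 : ((MulAction.stabilizer Cfsg.Co0 l0).subtype g) = (g : Cfsg.Co0) := rfl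
  rw [h2] at hg
  rw [hg, Cfsg.Agent.SporadicA.Co1Simple.allOne_smul] at h1
  have h3 := Cfsg.Agent.BabyM.GroupInst.dt_l₀
  have h4 := Cfsg.Agent.SporadicStructure.Co2RankThree.dt_neg_left l0 l0
  rw [h1, h3] at h4
  omega

/-- an element of order 23 of a centralizer whose quotient has elements of order 23 -/
theorem exists_lift {C K : Type*} [Group C] [Finite C] [Group K] [Finite K] (π : C →* K) (hπ : Function.Surjective π)
    (hK : 23 ∣ Nat.card K) (hk : ¬ 23 ∣ Nat.card π.ker) : ∃ y : C, orderOf y = 23 ∧ orderOf (π y) = 23 := by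
  have h23 : Fact (Nat.Prime 23) := ⟨by norm_num⟩
  have h1 : Nat.card C = Nat.card π.ker * Nat.card K := by
    rw [← Subgroup.card_mul_index π.ker, Subgroup.index_ker, MonoidHom.range_eq_top.2 hπ, Subgroup.card_top]
  obtain ⟨y, hy⟩ := exists_prime_orderOf_dvd_card' (G := C) 23 (by rw [h1]; exact hK.mul_left _)
  refine ⟨y, hy, ?_⟩
  have h2 : orderOf (π y) ∣ 23 := by rw [← hy]; exact orderOf_map_dvd π y
  rcases (Nat.dvd_prime (by norm_num)).1 h2 with h3 | h3
  · exfalso
    have h4 : y ∈ π.ker := by rw [MonoidHom.mem_ker]; exact orderOf_eq_one_iff.1 h3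
    have h5 := orderOf_dvd_natCard (⟨y, h4⟩ : π.ker)
    rw [Subgroup.orderOf_mk, hy] at h5
    exact hk h5
  · exact h3

/-- the group of the model -/
abbrev BG : Type := ↥Cfsg.Agent.BabyM.Inst.M.G

theorem nrel_model : NRel BG := by
  have A := Cfsg.Agent.BabyM.Instance.all
  have hfin : Finite BG := A.finite_G
  obtain ⟨π, hπ, hk⟩ := Cfsg.Agent.KFacts.Baby.Inst.quot A
  have hc : Nat.card K0 = 42305421312000 := Cfsg.Agent.BabyM.GroupInst.card
  have hf : Finite K0 := Nat.finite_of_card_ne_zero (by rw [hc]; norm_num)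
  have hcard : Nat.card (centralizer ({zz A} : Set BG)) = 2 ^ 23 * 42305421312000 := by
    rw [Nat.card_congr (Cfsg.Agent.KFacts.Baby.Inst.eC A).toEquiv, A.grp.card_C]
  have hkc : Nat.card π.ker = 2 ^ 23 := by
    have h1 : Nat.card (centralizer ({zz A} : Set BG)) = Nat.card π.ker * Nat.card K0 := by
      rw [← Subgroup.card_mul_index π.ker, Subgroup.index_ker, MonoidHom.range_eq_top.2 hπ, Subgroup.card_top]
    rw [hcard, hc] at h1
    exact (Nat.eq_of_mul_eq_mul_right (by norm_num) h1).symm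
  obtain ⟨y, hy, hy'⟩ := exists_lift π hπ (by rw [hc]; norm_num) (by rw [hkc]; norm_num)
  refine nrel_of_centralizer_odd (z := zz A) (z_sq A) π y (by rw [hy]; decide) ?_ (not_real_k0 hy')
  intro h
  rw [hk]
  exact zP A

/-- **The Baby Monster has an element which is not real.** -/
theorem nrel_b {K : Type*} [Group K] (h : Spor.IsoB K) : NRel K := by
  obtain ⟨e⟩ := Cfsg.Agent.KFacts.Baby.RowB.exists_iso h
  exact NRel.congr e nrel_model

/-- **The row of the Baby Monster.** -/
theorem rr_b {K : Type*} [Group K] (h : Spor.IsoB K) : RR K := RR.of_nrel (nrel_b h)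

end Cfsg.Agent.H243.SRB
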