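import Cfsg.Agent.H721.SR.Base
import Cfsg.Agent.H537.CopOrd
import Cfsg.Agent.H604.Cop.Conway

/-!
# Elements of prime order which are not real, by counting Sylow subgroups (helper243)

* `not_real_of_sc` : `C(x) = ⟨x⟩` of prime order `p`, `p ∥ |G|`, `|G| / p mod p` odd: `x` is not real;
* `not_real_co1`, `not_real_co2`, `not_real_co3` : `p = 23`;
* `not_real_of_inc` : the subgroups of `Co0` without `-1`.
-/

set_option autoImplicit false

namespace Cfsg.Agent.H243.SRCo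

open Subgroup Cfsg Cfsg.Agent.H721.SR Cfsg.Agent.H537.Cop

/-- an element inverted by an element of odd order has square one -/
theorem sq_eq_of_inv_odd {G : Type*} [Group G] {t x : G} (h : t * x * t⁻¹ = x⁻¹) (ho : Odd (orderOf t)) : x * x = 1 := by
  have h2 : Commute (t * t) x := by
    have h3 : t * t * x * (t * t)⁻¹ = x := by
      calc t * t * x * (t * t)⁻¹ = t * (t * x * t⁻¹) * t⁻¹ := by group
        _ = t * x⁻¹ * t⁻¹ := by rw [h]
        _ = (t * x * t⁻¹)⁻¹ := by group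
        _ = x := by rw [h, inv_inv]
    exact mul_inv_eq_iff_eq_mul.1 h3
  have h4 : Commute t x := by
    obtain ⟨k, hk⟩ := ho
    have h5 : (t * t) ^ (k + 1) = t := by
      rw [← pow_two, ← pow_mul, show 2 * (k + 1) = (2 * k + 1) + 1 by ring, pow_succ, ← hk, pow_orderOf_eq_one, one_mul]
    have h6 := h2.pow_left (k + 1)
    rwa [h5] at h6
  have h7 : t * x * t⁻¹ = x := by rw [h4.eq, mul_inv_cancel_right]
  rw [h7] at h
  calc x * x = x * x⁻¹ := by rw [← h]
    _ = 1 := mul_inv_cancel x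

theorem not_real_of_sc {G : Type*} [Group G] [Finite G] {p : ℕ} (hp : p.Prime) (hp2 : p ≠ 2)
    (hpp : ¬ p ^ 2 ∣ Nat.card G) (h : SC p G) (ho : Nat.card G / p % p % 2 = 1) {x : G} (hx : orderOf x = p) :
    ¬ IsConj x x⁻¹ := by
  intro hc
  obtain ⟨t, ht⟩ := isConj_iff.1 hc
  have hn := SC.card_norm hp hpp h hx
  have htn : t ∈ normalizer (zpowers x : Set G) := by
    rw [mem_normalizer_iff]
    have key : ∀ s : G, s * x * s⁻¹ = x⁻¹ → ∀ g ∈ zpowers x, s * g * s⁻¹ ∈ zpowers x := by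
      rintro s hs g ⟨k, rfl⟩
      refine ⟨-k, ?_⟩
      show x ^ (-k) = s * x ^ k * s⁻¹
      rw [← conj_zpow, hs, inv_zpow, zpow_neg]
    intro g
    refine ⟨fun hg => key t ht g hg, fun hg => ?_⟩
    have ht' : t⁻¹ * x * t⁻¹⁻¹ = x⁻¹ := by
      rw [inv_inv]
      calc t⁻¹ * x * t = t⁻¹ * (x⁻¹)⁻¹ * t := by rw [inv_inv]
        _ = t⁻¹ * (t * x * t⁻¹)⁻¹ * t := by rw [ht]
        _ = x⁻¹ := by group
    have h1 := key t⁻¹ ht' _ hg
    have h2 : t⁻¹ * (t * g * t⁻¹) * t⁻¹⁻¹ = g := by group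
    rwa [h2] at h1
  have hd : orderOf t ∣ Nat.card (normalizer (zpowers x : Set G)) := by
    have h1 := orderOf_dvd_natCard (⟨t, htn⟩ : normalizer (zpowers x : Set G))
    rwa [Subgroup.orderOf_mk] at h1
  have hodd : Odd (Nat.card (normalizer (zpowers x : Set G))) := by
    rw [hn]
    exact (hp.odd_of_ne_two hp2).mul (Nat.odd_iff.2 ho)
  have h1 := sq_eq_of_inv_odd ht (Odd.of_dvd_nat hodd hd)
  have h2 : orderOf x ∣ 2 := orderOf_dvd_of_pow_eq_one (by rw [pow_two, h1])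
  rw [hx] at h2
  exact hp2 ((Nat.prime_dvd_prime_iff_eq hp Nat.prime_two).1 h2)

theorem nrel_of_sc {G : Type*} [Group G] [Finite G] {p : ℕ} (hp : p.Prime) (hp2 : p ≠ 2)
    (hpG : p ∣ Nat.card G) (hpp : ¬ p ^ 2 ∣ Nat.card G) (h : SC p G) (ho : Nat.card G / p % p % 2 = 1) : NRel G := by
  have hF : Fact p.Prime := ⟨hp⟩
  obtain ⟨x, hx⟩ := exists_prime_orderOf_dvd_card' p hpG
  exact ⟨x, not_real_of_sc hp hp2 hpp h ho hx⟩

/-! ### Conway groups -/

open Cfsg.Agent.H604.Cop.Conway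
open Cfsg.Spor (Co1 Co2 Co3)

theorem card_co1 : Nat.card Co1 = 4157776806543360000 := Cfsg.Agent.BpSpor.MBigCo.card_co1

theorem sc_co1 : SC 23 Co1 := by
  have hf := Cfsg.Agent.BpSpor.MBigCo.finite_co1
  intro x hx
  have h23 : Fact (Nat.Prime 23) := ⟨by norm_num⟩
  have hpp : ¬ 23 ^ 2 ∣ Nat.card Co1 := by rw [card_co1]; norm_num
  obtain ⟨S, hS⟩ := sylow_of_order (by norm_num) hpp hx
  obtain ⟨T, hT⟩ := sylow_of_order (by norm_num) hpp orderOf_s23
  obtain ⟨g, hg⟩ := MulAction.exists_smul_eq Co1 T S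
  have h1 : MulAut.conj g s23 ∈ zpowers x := by
    rw [← hS, ← hg]
    have : s23 ∈ (T : Subgroup Co1) := by rw [hT]; exact mem_zpowers _
    exact ⟨s23, this, rfl⟩
  obtain ⟨k, hk⟩ := mem_zpowers_iff.1 h1
  have h2 : centralizer ({x} : Set Co1) ≤ centralizer ({MulAut.conj g s23} : Set Co1) := by
    intro y hy
    rw [mem_centralizer_singleton_iff] at hy ⊢
    rw [← hk]
    exact ((show Commute y x from hy).zpow_right k).eq
  have h3 : Nat.card (centralizer ({MulAut.conj g s23} : Set Co1)) ≤ 23 := by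
    rw [← card_centralizer_equiv (MulAut.conj g) s23]
    exact card_cent_s23
  have h4 := card_eq hx ((Nat.card_le_card_of_injective _ (Subgroup.inclusion_injective h2)).trans h3)
  rw [h4, hx]

theorem not_real_co1 {x : Co1} (hx : orderOf x = 23) : ¬ IsConj x x⁻¹ := by
  have hf := Cfsg.Agent.BpSpor.MBigCo.finite_co1
  exact not_real_of_sc (by norm_num) (by norm_num) (by rw [card_co1]; norm_num) sc_co1 (by rw [card_co1]) hx

/-- subgroups of `Co0` without `-1` -/
theorem not_real_of_inc {K : Type*} [Group K] [Finite K] (i : K →* Co0) (hi : Function.Injective i)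
    (hZ : ∀ g : K, i g ≠ Cfsg.Agent.SporadicA.Co0Mono.signCo0 Cfsg.Agent.SporadicA.Co1Simple.allOne)
    (hpp : ¬ 23 ^ 2 ∣ Nat.card K) (ho : Nat.card K / 23 % 23 % 2 = 1) {x : K} (hx : orderOf x = 23) :
    ¬ IsConj x x⁻¹ :=
  not_real_of_sc (by norm_num) (by norm_num) hpp (card_cent_of_inc i hi hZ) ho hx

theorem card_co2 : Nat.card Co2 = 42305421312000 := H49.CoStab.card_co2
theorem card_co3 : Nat.card Co3 = 495766656000 := H49.CoStab.card_co3

theorem not_real_co2 {x : Co2} (hx : orderOf x = 23) : ¬ IsConj x x⁻¹ := by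
  have hf := H49.CoStab.finite_co2
  exact not_real_of_inc inc2 inc2_injective inc2_ne (by rw [card_co2]; norm_num) (by rw [card_co2]) hx

theorem not_real_co3 {x : Co3} (hx : orderOf x = 23) : ¬ IsConj x x⁻¹ := by
  have hf := H49.CoStab.finite_co3
  exact not_real_of_inc inc3 inc3_injective inc3_ne (by rw [card_co3]; norm_num) (by rw [card_co3]) hx

theorem nrel_co1 {K : Type*} [Group K] (h : Spor.IsoCo1 K) : NRel K := by
  obtain ⟨e⟩ := h
  exact NRel.congr e.symm ⟨s23, not_real_co1 orderOf_s23⟩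

theorem nrel_co2 {K : Type*} [Group K] (h : Spor.IsoCo2 K) : NRel K := by
  obtain ⟨e⟩ := h
  have hf := H49.CoStab.finite_co2
  have : Fact (Nat.Prime 23) := ⟨by norm_num⟩
  obtain ⟨x, hx⟩ := exists_prime_orderOf_dvd_card' (G := Co2) 23 (by rw [card_co2]; norm_num)
  exact NRel.congr e.symm ⟨x, not_real_co2 hx⟩

theorem nrel_co3 {K : Type*} [Group K] (h : Spor.IsoCo3 K) : NRel K := by
  obtain ⟨e⟩ := h
  have hf := H49.CoStab.finite_co3
  have : Fact (Nat.Prime 23) := ⟨by norm_num⟩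
  obtain ⟨x, hx⟩ := exists_prime_orderOf_dvd_card' (G := Co3) 23 (by rw [card_co3]; norm_num)
  exact NRel.congr e.symm ⟨x, not_real_co3 hx⟩

end Cfsg.Agent.H243.SRCo
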