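import Cfsg.Agent.H243.SRCo
import Cfsg.Agent.LThreeMB.Model
import Cfsg.Agent.MonsterX.KDone
import Cfsg.Agent.MonsterX.MainSimple
import Cfsg.Agent.MonsterU.Uncond
import Cfsg.Agent.MonsterP.Equiv

/-!
# An element of the Monster which is not real (helper243)

`nrel_m` : `z y`, `z` the central involution of `2^{1+24}.Co1`, `y` of odd order with image of order 23 in `Co1`.
-/

set_option autoImplicit false
set_option maxRecDepth 100000

namespace Cfsg.Agent.H243.SRM

open Cfsg Cfsg.Agent.H721.SR Cfsg.Agent.MonsterX Cfsg.Agent.MonsterX.InstData Cfsg.Agent.MonsterX.MainPack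
open Cfsg.Agent.MonsterU Cfsg.Agent.MonsterU.Ch Cfsg.Agent.MonsterU.Lam2
open Cfsg.Agent.LThreeMB
open Cfsg.Agent.MonsterX.MainBasic Cfsg.Agent.MonsterX.MainSimple Cfsg.Agent.MonsterX.Model
open Cfsg.Spor (Co1)
open Subgroup (centralizer mem_centralizer_singleton_iff)

/-- an element of odd order above an element of odd prime order -/
theorem exists_odd_lift {C K : Type*} [Group C] [Finite C] [Group K] (π : C →* K) (hπ : Function.Surjective π)
    {s : K} (hs : Odd (orderOf s)) : ∃ y : C, Odd (orderOf y) ∧ orderOf (π y) = orderOf s := by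
  obtain ⟨c, rfl⟩ := hπ s
  obtain ⟨k, m, hm, hk⟩ := Nat.exists_eq_two_pow_mul_odd (n := orderOf c) (orderOf_pos c).ne'
  refine ⟨c ^ 2 ^ k, ?_, ?_⟩
  · rw [orderOf_pow_of_dvd (by positivity) (by rw [hk]; exact Dvd.intro _ rfl), hk, Nat.mul_div_cancel_left _ (by positivity)]
    exact hm
  · rw [map_pow]
    exact (Nat.Coprime.orderOf_pow (Nat.Coprime.pow_right k (Nat.coprime_two_right.2 hs)))

/-- the group of the model -/
abbrev MG : Type := ↥InstData.M.G

theorem hc : KChart.Cent KDone.K :=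
  LThreeMB.Model.cent KDone.lnk KDone.mGroup KDone.mRep KDone.mLat Uncond.mOrbit Instance.mTrans

theorem finite_model : Finite MG := G_finite Uncond.mOrbit

theorem nrel_model : NRel MG := by
  have hfin := finite_model
  have h := KChart.chart KDone.lft hc
  obtain ⟨y, hy, hy'⟩ := exists_odd_lift (KChart.pi hc) h.pi_surj (s := H604.Cop.Conway.s23)
    (by rw [H604.Cop.Conway.orderOf_s23]; decide)
  rw [H604.Cop.Conway.orderOf_s23] at hy'
  refine nrel_of_centralizer_odd (z := KDone.K.z) h.large.z_sq (KChart.pi hc) y hy ?_ (SRCo.not_real_co1 hy')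
  intro hz
  refine eq_of_smul fun v => ?_
  obtain ⟨x, hx, rfl⟩ := h.eta_surj v
  rw [one_smul, ← h.eta_conj ⟨KDone.K.z, hz⟩ x hx]
  congr 1
  show KDone.K.z * x * KDone.K.z⁻¹ = x
  rw [← h.large.comm_z x hx, mul_inv_cancel_right]

/-- **The Monster has an element which is not real.** -/
theorem nrel_m {K : Type*} [Group K] (h : Spor.IsoM K) : NRel K := by
  obtain ⟨e⟩ := h
  obtain ⟨f⟩ := Cfsg.Agent.MonsterP.Equiv.equiv
  exact NRel.congr (f.symm.trans e.symm) nrel_model

/-- **The row of the Monster.** -/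
theorem rr_m {K : Type*} [Group K] (h : Spor.IsoM K) : RR K := RR.of_nrel (nrel_m h)

end Cfsg.Agent.H243.SRM
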