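import Mathlib
import Cfsg.Agent.H243.SpA
import Cfsg.Agent.S0270
import Cfsg.Agent.LieClassical.FieldTransfer

/-!
# The centralizer of a 3-central element of order 3 in `PSp₄(3)` (helper243)
-/

set_option autoImplicit false

namespace Cfsg.Agent.H243.Sp43

open Matrix Subgroup Cfsg

/-- The image of `U`. -/
def Ub : Subgroup (PSp 2 F3) := U.map π

theorem π_inj_U {g h : Sp} (hg : g ∈ U) (hh : h ∈ U) (hgh : π g = π h) : g = h :=
  π_inj_St (U_le_St hg) (U_le_St hh) hgh

theorem card_map {H : Subgroup Sp} (hH : H ≤ St) : Nat.card ↥(H.map π) = Nat.card ↥H := by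
  refine (Nat.card_congr (Equiv.ofBijective (fun x : ↥H => (⟨π x, x, x.2, rfl⟩ : ↥(H.map π))) ?_)).symm
  constructor
  · intro x y hxy
    exact Subtype.ext (π_inj_St (hH x.2) (hH y.2) (congrArg Subtype.val hxy))
  · rintro ⟨_, x, hx, rfl⟩
    exact ⟨⟨x, hx⟩, rfl⟩

theorem card_Ub : Nat.card ↥Ub = 81 := by rw [Ub, card_map U_le_St, card_U]

/-- `Ub` as a Sylow subgroup. -/
noncomputable def Us : Sylow 3 (PSp 2 F3) :=
  Sylow.ofCard Ub (by
    rw [card_Ub, card_PSp]
    have : (25920 : ℕ).factorization 3 = 4 := by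
      have : Fact (Nat.Prime 3) := ⟨Nat.prime_three⟩
      rw [show (25920 : ℕ) = 3 ^ 4 * 320 by norm_num, Nat.factorization_def _ Nat.prime_three,
        padicValNat.mul (by norm_num) (by norm_num), padicValNat.prime_pow,
        padicValNat.eq_zero_of_not_dvd (by norm_num)]
    rw [this]; norm_num)

theorem Us_coe : (Us : Subgroup (PSp 2 F3)) = Ub := rfl

theorem Ub_pgroup : IsPGroup 3 ↥Ub := IsPGroup.of_card (n := 4) (by rw [card_Ub]; norm_num)

/-- elements of `Ub` centralizing `Ub` are powers of the transvection -/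
theorem center_aux : ∀ a b c d : F3, uM a b c d * uM 1 0 0 0 = uM 1 0 0 0 * uM a b c d →
    uM a b c d * uM 0 0 1 0 = uM 0 0 1 0 * uM a b c d → uM a b c d * uM 0 0 0 1 = uM 0 0 0 1 * uM a b c d →
    a = 0 ∧ c = 0 ∧ d = 0 := by
  decide +kernel

theorem center_Ub {x : PSp 2 F3} (hx : x ∈ Ub) (hc : ∀ y ∈ Ub, x * y = y * x) : x = 1 ∨ x = π τ ∨ x = (π τ)⁻¹ := by
  obtain ⟨_, ⟨a, b, c, d, rfl⟩, rfl⟩ := hx
  have key : ∀ a' b' c' d' : F3, uM a b c d * uM a' b' c' d' = uM a' b' c' d' * uM a b c d := by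
    intro a' b' c' d'
    have h1 := hc (π (uS a' b' c' d')) ⟨_, ⟨a', b', c', d', rfl⟩, rfl⟩
    rw [← map_mul, ← map_mul] at h1
    have h2 := π_inj_U (U.mul_mem ⟨_, _, _, _, rfl⟩ ⟨_, _, _, _, rfl⟩) (U.mul_mem ⟨_, _, _, _, rfl⟩ ⟨_, _, _, _, rfl⟩) h1
    exact congrArg Subtype.val h2
  obtain ⟨rfl, rfl, rfl⟩ := center_aux a b c d (key _ _ _ _) (key _ _ _ _) (key _ _ _ _)
  rcases f3_cases b with rfl | rfl | rfl
  · left
    rw [uS_zero, map_one]
  · right; left; rfl
  · right; right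
    rw [← map_inv]
    congr 1
    rw [eq_inv_iff_mul_eq_one, τ, uS_mul, ← uS_zero]
    congr 1

/-- the centralizer of the transvection -/
theorem cent_eq : centralizer ({π τ} : Set (PSp 2 F3)) = St.map π := by
  ext x
  constructor
  · intro hx
    obtain ⟨g, rfl⟩ := π_surj x
    rw [mem_centralizer_singleton_iff] at hx
    rcases cent_τ hx with h1 | h1
    · exact ⟨g, h1, rfl⟩
    · have hneg : (-1 : Mat) ∈ Matrix.symplecticGroup (Fin 2) F3 := by
        rw [SymplecticGroup.mem_iff]; simp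
      have hcen : (⟨-1, hneg⟩ : Sp) ∈ center Sp :=
        (LieClassical.SympCenter.mem_center_iff 2 _).2 ⟨-1, by simp⟩
      have hπ : π (⟨-1, hneg⟩ : Sp) = 1 := (QuotientGroup.eq_one_iff _).2 hcen
      refine ⟨g * ⟨-1, hneg⟩, ?_, ?_⟩
      · change (((g * ⟨-1, hneg⟩ : Sp) : Mat)) *ᵥ v0 = v0
        rw [Submonoid.coe_mul]
        change ((g : Mat) * (-1)) *ᵥ v0 = v0
        rw [mul_neg, mul_one, Matrix.neg_mulVec, h1, neg_neg]
      · rw [map_mul, hπ, mul_one]
  · rintro ⟨g, hg, rfl⟩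
    rw [mem_centralizer_singleton_iff, ← map_mul, ← map_mul]
    congr 1
    -- `g τ = τ g`
    have hg' : (g : Mat) *ᵥ v0 = v0 := hg
    apply Subtype.ext
    rw [Submonoid.coe_mul, Submonoid.coe_mul]
    -- the `inr 0` coordinate is invariant under `g`
    have hcoord : ∀ v : V, ((g : Mat) *ᵥ v) (Sum.inr 0) = v (Sum.inr 0) := by
      intro v
      have hrow : ∀ j, (g : Mat) (Sum.inr 0) j = if j = Sum.inr 0 then 1 else 0 := by
        -- from `gᵀ J g = J`
        have h1 := SymplecticGroup.mem_iff'.1 g.2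
        intro j
        have h2 : ∀ i, (g : Mat) i (Sum.inl 0) = v0 i := by
          intro i
          rw [← mulVec_v0 (g : Mat) i, hg']
        have h3 := congrFun (congrFun h1 (Sum.inl 0)) j
        simp only [Matrix.mul_apply, Matrix.transpose_apply, Fintype.sum_sum_type, Fin.sum_univ_two, h2] at h3
        rcases j with j | j <;> fin_cases j <;> simp [v0, J] at h3 ⊢ <;> exact h3
      rw [Matrix.mulVec, dotProduct, Finset.sum_congr rfl (fun j _ => by rw [hrow j])]
      simp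
    have : ∀ v : V, ((g : Mat) * (τ : Mat)) *ᵥ v = ((τ : Mat) * (g : Mat)) *ᵥ v := by
      intro v
      rw [← Matrix.mulVec_mulVec, ← Matrix.mulVec_mulVec, τ_mulVec, τ_mulVec, hcoord, Matrix.mulVec_add,
        Matrix.mulVec_smul, hg']
    exact Matrix.mulVec_injective (funext this)

theorem card_cent : Nat.card ↥(centralizer ({π τ} : Set (PSp 2 F3))) = 648 := by
  rw [cent_eq, card_map le_rfl, card_St]

end Cfsg.Agent.H243.Sp43
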